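import Cfsg.Agent.Lib.CyclicDefect.Structure

/-!
# Cyclic defect groups: the setup from a defect group
-/

set_option autoImplicit false
set_option linter.unusedSectionVars false
set_option linter.style.haveILetI false

namespace Cfsg.Agent.Lib.CyclicDefect

open Cfsg Cfsg.Agent.Lib Cfsg.Agent.Lib.Block Cfsg.Agent.Lib.BrauerPairs

universe u

variable {p : ℕ} {M : Ideal AlgInt} [M.IsPrime] {G : Type u} [Group G] [Finite G]

theorem exists_setup_of_defect (hM : IsPModular p M) {B : Set (IrrCharacter G)} (hB : IsPBlock M B)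
    {D : Subgroup G} (hD : IsCyclic D) {a : ℕ} (ha : 1 ≤ a) (hDa : Nat.card D = p ^ a)
    (hBD : IsDefectGroup p M B D) {b : CBlock D}
    (hind : IsInducedBlock M (Subgroup.centralizer (D : Set G)) b B) {T : Subgroup G}
    (hT : ∀ g : G, g ∈ T ↔ (g ∈ Subgroup.normalizer (D : Set G) ∧ ∀ θ ∈ b,
      ∀ θ' : IrrCharacter (Subgroup.centralizer (D : Set G)),
        (∀ h h' : Subgroup.centralizer (D : Set G), (h' : G) = g * h * g⁻¹ →
          (θ' : Subgroup.centralizer (D : Set G) → ℂ) h' =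
            (θ : Subgroup.centralizer (D : Set G) → ℂ) h) → θ' ∈ b)) {e : ℕ}
    (he : (Subgroup.centralizer (D : Set G)).relIndex T = e) :
    ∃ S : Setup p M B D b, S.m = e ∧ S.a = a := by
  have hmax := isMaximal_of_inducedBlock hM hB hBD hind
  have hb : IsPBlock M b := hmax.1.1.2
  have hD1 : D ≠ ⊥ := by
    intro h
    rw [h, Subgroup.card_bot] at hDa
    exact (Nat.one_lt_pow (by omega) hM.1.one_lt).ne hDa
  obtain ⟨S⟩ := exists_setup hM hmax hD hD1
  refine ⟨S, ?_, Nat.pow_right_injective hM.1.two_le (S.card_P.symm.trans hDa)⟩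
  rw [← S.m_eq, ← he]
  congr 1
  refine (eq_stab hb fun y => (hT y).trans (and_congr_right fun hy => ?_)).symm
  have hC := mem_normalizer_centralizer hy
  constructor
  · intro h
    exact ⟨hC, fun χ hχ => ⟨mapIrr (normEquiv hC) χ,
      h χ hχ _ ((isConjCharOf_iff hC χ _).2 rfl), (isConjCharOf_iff hC χ _).2 rfl⟩⟩
  · rintro ⟨-, h⟩ θ hθ θ' hθ'
    obtain ⟨θ'', hθ'', hc⟩ := h θ hθ
    rwa [((isConjCharOf_iff hC θ θ').1 hθ').trans ((isConjCharOf_iff hC θ θ'').1 hc).symm]

end Cfsg.Agent.Lib.CyclicDefect
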