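import Cfsg.Agent.Lib.CyclicDefect.Sigma
import Cfsg.Agent.Lib.BrauerPairs.CentPairs
import Cfsg.Agent.Lib.Star.Action

/-!
# Values and induced differences for a block with cyclic defect group
-/

set_option autoImplicit false
set_option linter.unusedSectionVars false
set_option linter.style.haveILetI false
set_option maxHeartbeats 1000000

namespace Cfsg.Agent.Lib.CyclicDefect

open Cfsg Cfsg.Agent.Lib Cfsg.Agent.Lib.Block Cfsg.Agent.Lib.BrauerPairs Cfsg.Agent.Lib.Star
open scoped ComplexConjugate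

universe u

variable {p : ℕ} {M : Ideal AlgInt} [M.IsPrime] {G : Type u} [Group G] [Finite G]

theorem zpowers_eq_of_mem [Fact p.Prime] {v y y' : G} (hv : IsPElem p v)
    (hy : y ∈ Subgroup.zpowers v) (hy' : y' ∈ Subgroup.zpowers v) (ho : orderOf y = p)
    (ho' : orderOf y' = p) : Subgroup.zpowers y = Subgroup.zpowers y' := by
  obtain ⟨k, hk⟩ := hv
  have hp : p.Prime := Fact.out
  have key : ∀ y : G, y ∈ Subgroup.zpowers v → orderOf y = p →
      Subgroup.zpowers y = Subgroup.zpowers (v ^ p ^ (k - 1)) ∧ 0 < k := by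
    intro y hy ho
    have hk0 : 0 < k := by
      by_contra h0
      have h1 : v = 1 := orderOf_eq_one_iff.1 (by rw [hk, show k = 0 by omega, pow_zero])
      rw [h1, Subgroup.zpowers_one_eq_bot, Subgroup.mem_bot] at hy
      rw [hy, orderOf_one] at ho
      exact hp.ne_one ho.symm
    refine ⟨?_, hk0⟩
    obtain ⟨i, hi⟩ := (isOfFinOrder_of_finite v).mem_powers_iff_mem_zpowers.2 hy
    simp only at hi
    have hdvd : p ^ k ∣ i * p := by
      rw [← hk, orderOf_dvd_iff_pow_eq_one, pow_mul, hi, ← ho, pow_orderOf_eq_one]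
    have hdvd' : p ^ (k - 1) ∣ i := by
      rw [show k = k - 1 + 1 by omega, pow_succ] at hdvd
      exact Nat.dvd_of_mul_dvd_mul_right hp.pos hdvd
    refine Subgroup.eq_of_le_of_card_ge (Subgroup.zpowers_le.2 ?_) ?_
    · obtain ⟨j, hj⟩ := hdvd'
      rw [← hi, hj, pow_mul]
      exact pow_mem (Subgroup.mem_zpowers _) j
    · rw [Nat.card_zpowers, Nat.card_zpowers, ho, orderOf_pow, hk,
        Nat.gcd_eq_right (pow_dvd_pow p (by omega)),
        Nat.pow_div (by omega) hp.pos, show k - (k - 1) = 1 by omega, pow_one]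
  exact (key y hy ho).1.trans (key y' hy' ho').1.symm

variable {B : Set (IrrCharacter G)} {P : Subgroup G} {e : CBlock P}

namespace Setup

variable (S : Setup p M B P e)

/-- A member of the local block vanishes off the sections through `z`. -/
theorem z_mem_pp {η : IrrCharacter S.CZ} (hη : η ∈ S.f) {h : S.CZ}
    (hs : p ∣ orderOf h) (hne : (η : S.CZ → ℂ) h ≠ 0) :
    S.z ∈ Subgroup.zpowers (pp p (h : G)) := by
  classical
  haveI : Fact p.Prime := ⟨S.hM.1⟩
  obtain ⟨e', he', -⟩ := exists_pull_maximal S.hM S.hmax (abelian_of_cyclic S.hcyc) S.hle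
  have hparts := exists_parts S.hM h
  have hup : IsPElem p (pp p h) := isPElem_pp h
  have hppc : pp p (h : G) = ((pp p h : S.CZ) : G) := by
    obtain ⟨s, hsr, hus⟩ := hparts
    refine pp_eq (?_ : IsPPart p (h : G) ((pp p h : S.CZ) : G))
    have := isPPart_mul (p := p) (G := G) (x := ((pp p h : S.CZ) : G)) (s := ((s : S.CZ) : G))
      (by obtain ⟨k, hk⟩ := hup; exact ⟨k, by rw [Subgroup.orderOf_coe, hk]⟩)
      (by rw [Subgroup.orderOf_coe, Subgroup.orderOf_coe]; exact hsr)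
      (congrArg Subtype.val (mem_centralizer_zpowers.1 s.2))
    rwa [← Subgroup.coe_mul, hus] at this
  rw [hppc]
  generalize pp p h = u at hparts hup ⊢
  obtain ⟨s, hsr, hus⟩ := hparts
  obtain ⟨a, ha, hane⟩ : ∃ a ∈ pset M (Subgroup.zpowers u),
      sec M (η : S.CZ → ℂ) u a (u * (s : S.CZ)) ≠ 0 := by
    by_contra hcon
    push Not at hcon
    refine hne ?_
    rw [← hus, ← sum_pset_sec S.hM (Char.isClassFunction_of_isIrr η.2) s]
    exact Finset.sum_eq_zero hcon
  obtain ⟨g, hg, rfl⟩ := mem_pset.1 ha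
  have hpair : IsBrauerPairOf p M S.f (Subgroup.zpowers u) g := by
    by_contra hnp
    exact hane (sec_eq_zero_of_not_pair S.hM S.hf hη hup hg hnp hsr)
  obtain ⟨x, hx⟩ := exists_conj_le_maximal S.hM hpair he'
  have hmem : x * u * x⁻¹ ∈ P.subgroupOf S.CZ :=
    subgroup_le hx ⟨u, Subgroup.mem_zpowers u, rfl⟩
  have hu1 : u ≠ 1 := by
    intro h1
    subst h1
    rw [one_mul] at hus
    rw [← hus, Subgroup.orderOf_coe] at hs
    exact hsr hs
  have hz := S.z_mem_zpowers (Subgroup.mem_subgroupOf.1 hmem) fun h1 =>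
    hu1 (conj_eq_one_iff.1 (Subtype.ext h1 : x * u * x⁻¹ = 1))
  obtain ⟨i, hi⟩ := Subgroup.mem_zpowers_iff.1 hz
  refine Subgroup.mem_zpowers_iff.2 ⟨i, ?_⟩
  rw [Subgroup.coe_mul, Subgroup.coe_mul, Subgroup.coe_inv, conj_zpow, mul_inv_eq_iff_eq_mul] at hi
  have hxz : (x : G) * S.z = S.z * x :=
    (Subgroup.mem_centralizer_iff.1 x.2 S.z (Subgroup.mem_zpowers _)).symm
  rw [← hxz] at hi
  exact mul_left_cancel hi

/-- A difference of members of the block vanishes at regular elements. -/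
theorem sub_regular {η η' : IrrCharacter S.CZ} (hη : η ∈ S.f) (hη' : η' ∈ S.f) {h : S.CZ}
    (hr : ¬ p ∣ orderOf h) : ((η : S.CZ → ℂ) - (η' : S.CZ → ℂ)) h = 0 := by
  rw [Pi.sub_apply, S.model.reg η hη η' hη' h hr, sub_self]

theorem z_mem_pp_of_sub {η η' : IrrCharacter S.CZ} (hη : η ∈ S.f) (hη' : η' ∈ S.f) {h : S.CZ}
    (hne : ((η : S.CZ → ℂ) - (η' : S.CZ → ℂ)) h ≠ 0) :
    S.z ∈ Subgroup.zpowers (pp p (h : G)) := by
  have hs : p ∣ orderOf h := by
    by_contra hr
    exact hne (S.sub_regular hη hη' hr)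
  by_cases h1 : (η : S.CZ → ℂ) h = 0
  · refine S.z_mem_pp hη' hs fun h2 => hne ?_
    rw [Pi.sub_apply, h1, h2, sub_zero]
  · exact S.z_mem_pp hη hs h1

/-- The induced difference. -/
noncomputable def ind [Fintype G] (η η₀ : IrrCharacter S.CZ) : G → ℂ :=
  indFun S.CZ ((η : S.CZ → ℂ) - (η₀ : S.CZ → ℂ))

theorem generalized_ind [Fintype G] (η η₀ : IrrCharacter S.CZ) :
    IsGeneralizedCharacter G (S.ind η η₀) :=
  ⟨_, _, Char.isCharacter_indFun S.CZ (Char.isCharacter_of_isIrr η.2),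
    Char.isCharacter_indFun S.CZ (Char.isCharacter_of_isIrr η₀.2), by
      rw [ind, Char.indFun_sub]⟩

theorem ind_regular [Fintype G] {η η₀ : IrrCharacter S.CZ} (hη : η ∈ S.f) (hη₀ : η₀ ∈ S.f)
    {g : G} (hg : ¬ p ∣ orderOf g) : S.ind η η₀ g = 0 := by
  simp only [ind, indFun]
  refine mul_eq_zero_of_right _ (Finset.sum_eq_zero fun x _ => ?_)
  by_cases hm : x⁻¹ * g * x ∈ S.CZ
  · rw [Char.extendByZero_mem _ _ hm]
    refine S.sub_regular hη hη₀ fun hd => hg ?_
    have h1 := orderOf_conj_eq x⁻¹ g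
    rw [inv_inv] at h1
    rwa [← Subgroup.orderOf_coe, h1] at hd
  · exact Char.extendByZero_not_mem _ _ hm

theorem classInner_ind [Fintype G] [Fintype S.CZ] (η η₀ : IrrCharacter S.CZ) {φ : G → ℂ}
    (hφ : IsClassFunction G φ) :
    classInner (S.ind η η₀) φ = classInner (η : S.CZ → ℂ) (fun h : S.CZ => φ h) -
      classInner (η₀ : S.CZ → ℂ) (fun h : S.CZ => φ h) := by
  rw [ind, Char.classInner_indFun _ _ hφ, Char.classInner_sub_left]

/-- Inner products of induced differences. -/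
theorem classInner_ind_ind [Fintype G] [Fintype S.CZ] {η η₀ η' η₀' : IrrCharacter S.CZ}
    (hη : η ∈ S.f) (hη₀ : η₀ ∈ S.f) (hη' : η' ∈ S.f) (hη₀' : η₀' ∈ S.f) :
    classInner (S.ind η η₀) (S.ind η' η₀') = ∑ j ∈ Finset.range S.m,
      classInner ((η : S.CZ → ℂ) - (η₀ : S.CZ → ℂ))
        ((mapIrr (S.nconj j) η' : S.CZ → ℂ) - (mapIrr (S.nconj j) η₀' : S.CZ → ℂ)) := by
  classical
  haveI : Fact p.Prime := ⟨S.hM.1⟩
  set θ := (η : S.CZ → ℂ) - (η₀ : S.CZ → ℂ) with hθ
  set θ' := (η' : S.CZ → ℂ) - (η₀' : S.CZ → ℂ) with hθ'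
  rw [ind, ← hθ, ind, ← hθ', Char.classInner_indFun _ _ (Char.isClassFunction_indFun _ _)]
  set N : ℂ := (Nat.card S.CZ : ℂ)⁻¹ with hN
  set T : G → ℂ := fun x => ∑ h : S.CZ, θ h * conj (extendByZero S.CZ θ' (x⁻¹ * (h : G) * x))
    with hT
  have hexp : classInner θ (fun h : S.CZ => indFun S.CZ θ' (h : G)) = N * N * ∑ x : G, T x := by
    simp only [classInner, indFun, hT, map_mul, map_sum, map_inv₀, Complex.conj_natCast, hN,
      Finset.mul_sum]
    rw [Finset.sum_comm]
    refine Finset.sum_congr rfl fun x _ => Finset.sum_congr rfl fun h _ => ?_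
    ring
  rw [hexp]
  -- the terms off the stabiliser
  have hzero : ∀ x : G, (∀ j, j < S.m → (S.n ^ j)⁻¹ * x ∉ S.CZ) → T x = 0 := by
    intro x hx
    by_cases hxN : x ∈ Subgroup.normalizer (S.Z : Set G)
    · have hxC := mem_normalizer_centralizer hxN
      have hnotin : ∀ ξ ∈ S.f, mapIrr (normEquiv hxC) ξ ∉ S.f := by
        intro ξ hξ hmem
        have hb : mapBlock (normEquiv hxC) S.f = S.f :=
          eq_of_mem_of_mem (isPBlock_mapBlock _ S.hf) S.hf ⟨ξ, hξ, rfl⟩ hmem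
        have hst : x ∈ stab M S.Z S.f := ⟨hxN, (stabilizesBlock_iff hxN S.hf).1
          ⟨hxC, fun χ hχ => ⟨mapIrr (normEquiv hxC) χ, hb ▸ ⟨χ, hχ, rfl⟩,
            (isConjCharOf_iff hxC χ _).2 rfl⟩⟩⟩
        obtain ⟨j, hj, hjm⟩ := S.cover x hst
        exact hx j hj hjm
      have h1 : T x = (Nat.card S.CZ : ℂ) * classInner θ
          ((mapIrr (normEquiv hxC) η' : S.CZ → ℂ) - (mapIrr (normEquiv hxC) η₀' : S.CZ → ℂ)) := by
        rw [classInner, ← mul_assoc, mul_inv_cancel₀ (Nat.cast_ne_zero.2 Nat.card_pos.ne'), one_mul]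
        refine Finset.sum_congr rfl fun h _ => ?_
        congr 2
        rw [Char.extendByZero_mem _ _ ((Subgroup.mem_normalizer_iff''.1 hxC h).1 h.2)]
        rfl
      rw [h1, hθ, Char.classInner_sub_left, Char.classInner_sub_right, Char.classInner_sub_right]
      simp only [Char.classInner_irrCharacter]
      rw [if_neg, if_neg, if_neg, if_neg]
      · ring
      all_goals intro heq
      · exact hnotin η₀' hη₀' (heq ▸ hη₀)
      · exact hnotin η' hη' (heq ▸ hη₀)
      · exact hnotin η₀' hη₀' (heq ▸ hη)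
      · exact hnotin η' hη' (heq ▸ hη)
    · refine Finset.sum_eq_zero fun h _ => ?_
      by_contra hne
      rw [← Ne, mul_ne_zero_iff] at hne
      obtain ⟨h1, h2⟩ := hne
      have hmem : x⁻¹ * (h : G) * x ∈ S.CZ := by
        by_contra hm
        exact h2 (by rw [Char.extendByZero_not_mem _ _ hm, map_zero])
      rw [Char.extendByZero_mem _ _ hmem] at h2
      have hz1 : S.z ∈ Subgroup.zpowers (pp p (h : G)) := S.z_mem_pp_of_sub hη hη₀ h1
      have hz2 := S.z_mem_pp_of_sub hη' hη₀' (h := ⟨_, hmem⟩) fun h0 => h2 (by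
        rw [hθ', h0, map_zero])
      have hpp : pp p (x⁻¹ * (h : G) * x) = x⁻¹ * pp p (h : G) * x := by
        obtain ⟨y, hy1, hy2, hy3, hy4⟩ := isPPart_iff.1 (isPPart_pp (p := p) (h : G))
        refine pp_eq ?_
        have := isPPart_mul (p := p) (x := x⁻¹ * pp p (h : G) * x⁻¹⁻¹) (s := x⁻¹ * y * x⁻¹⁻¹)
          (hy3.conj x⁻¹) (by rwa [orderOf_conj_eq]) (hy2.map (MulAut.conj x⁻¹).toMonoidHom)
        rw [inv_inv, show x⁻¹ * pp p (h : G) * x * (x⁻¹ * y * x) =
          x⁻¹ * (pp p (h : G) * y) * x by group, hy1] at this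
        exact this
      simp only at hz2
      rw [hpp] at hz2
      obtain ⟨i, hi⟩ := Subgroup.mem_zpowers_iff.1 hz2
      have hz3 : x * S.z * x⁻¹ ∈ Subgroup.zpowers (pp p (h : G)) := by
        refine Subgroup.mem_zpowers_iff.2 ⟨i, ?_⟩
        rw [← hi, show x⁻¹ * pp p (h : G) * x = x⁻¹ * pp p (h : G) * x⁻¹⁻¹ by rw [inv_inv],
          conj_zpow]
        group
      have heq := zpowers_eq_of_mem (isPElem_pp (p := p) (h : G)) hz1 hz3 S.z_ord
        (by rw [orderOf_conj_eq, S.z_ord])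
      refine hxN (Subgroup.mem_normalizer_iff_map_conj_eq.2 ?_)
      show (Subgroup.zpowers S.z).map _ = Subgroup.zpowers S.z
      rw [MonoidHom.map_zpowers]
      exact heq.symm
  -- collect the rest
  have hinj : Function.Injective fun jc : Fin S.m × S.CZ => S.n ^ (jc.1 : ℕ) * (jc.2 : G) := by
    rintro ⟨i, c⟩ ⟨j, d⟩ h
    simp only at h
    have key : ∀ {i j : Fin S.m} {c d : S.CZ}, (i : ℕ) ≤ j →
        S.n ^ (i : ℕ) * (c : G) = S.n ^ (j : ℕ) * (d : G) → i = j := by
      intro i j c d hij h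
      rw [← Nat.add_sub_cancel' hij, pow_add, mul_assoc] at h
      have h1 : S.n ^ ((j : ℕ) - i) = (c : G) * (d : G)⁻¹ := by
        rw [mul_left_cancel h, mul_inv_cancel_right]
      have := S.n_min ((j : ℕ) - i) (by have := j.2; omega) (h1 ▸ mul_mem c.2 (inv_mem d.2))
      exact Fin.ext (by omega)
    obtain rfl : i = j := by
      rcases le_total (i : ℕ) j with hl | hl
      · exact key hl h
      · exact (key hl h.symm).symm
    rw [Subtype.ext (mul_left_cancel h)]
  have hsum : ∑ jc : Fin S.m × S.CZ, T (S.n ^ (jc.1 : ℕ) * (jc.2 : G)) = ∑ x : G, T x :=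
    Fintype.sum_of_injective _ hinj _ _ (fun x hx => hzero x fun j hj hmem =>
      hx ⟨(⟨j, hj⟩, ⟨_, hmem⟩), by simp⟩) fun _ => rfl
  rw [← hsum, Fintype.sum_prod_type, Finset.sum_range, Finset.mul_sum]
  refine Finset.sum_congr rfl fun j _ => ?_
  have hTj : ∀ c : S.CZ, T (S.n ^ (j : ℕ) * (c : G)) = (Nat.card S.CZ : ℂ) * classInner θ
      ((mapIrr (S.nconj j) η' : S.CZ → ℂ) - (mapIrr (S.nconj j) η₀' : S.CZ → ℂ)) := by
    intro c
    rw [classInner, ← mul_assoc, mul_inv_cancel₀ (Nat.cast_ne_zero.2 Nat.card_pos.ne'), one_mul]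
    refine Finset.sum_congr rfl fun h _ => ?_
    congr 2
    have hc : (S.n ^ (j : ℕ) * (c : G))⁻¹ * (h : G) * (S.n ^ (j : ℕ) * (c : G)) =
        ((c⁻¹ * (S.nconj j).symm h * c : S.CZ) : G) := by
      rw [Subgroup.coe_mul, Subgroup.coe_mul, nconj_symm_coe, Subgroup.coe_inv]
      group
    rw [hc, Char.extendByZero_mem _ _ (Subtype.coe_prop _), Subtype.coe_eta, hθ', Pi.sub_apply,
      Pi.sub_apply]
    have hcl : ∀ ξ : IrrCharacter S.CZ, (ξ : S.CZ → ℂ) (c⁻¹ * (S.nconj j).symm h * c) =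
        (ξ : S.CZ → ℂ) ((S.nconj j).symm h) := fun ξ => by
      simpa using Char.isClassFunction_of_isIrr ξ.2 ((S.nconj j).symm h) c⁻¹
    rw [hcl, hcl]
    rfl
  simp only [hTj, Finset.sum_const, Finset.card_univ, nsmul_eq_mul, ← Nat.card_eq_fintype_card,
    hN]
  field_simp [Nat.cast_ne_zero.2 (Nat.card_pos (α := S.CZ)).ne']

/-- Characters whose coefficients on the local block are constant have no parts in the
subsections of the block. -/
theorem sec_eq_zero_of_const [Fintype S.CZ] {φ : G → ℂ} (hφ : IsClassFunction G φ)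
    (hconst : ∀ η ∈ S.f, ∀ η' ∈ S.f, classInner (η : S.CZ → ℂ) (fun h : S.CZ => φ h) =
      classInner (η' : S.CZ → ℂ) (fun h : S.CZ => φ h))
    {u : G} (hu : u ∈ P) (hu1 : u ≠ 1) {s : Subgroup.centralizer (Subgroup.zpowers u : Set G)}
    (hs : ¬ p ∣ orderOf s) : sec M φ u (below p M P e u) (u * (s : G)) = 0 := by
  classical
  haveI : Fact p.Prime := ⟨S.hM.1⟩
  haveI := Fintype.ofFinite G
  obtain ⟨fu, hfu, hle, hbel⟩ := exists_below S.hM S.hP S.hmax.1.1.2 hu
  rw [hbel]
  have hzu : S.Z ≤ Subgroup.zpowers u := Subgroup.zpowers_le.2 (S.z_mem_zpowers hu hu1)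
  have hC : Subgroup.centralizer (Subgroup.zpowers u : Set G) ≤ S.CZ :=
    Subgroup.centralizer_le (SetLike.coe_subset_coe.2 hzu)
  set u' : S.CZ := ⟨u, S.le_H hu⟩ with hu'
  have hiff : ∀ x : S.CZ, x ∈ Subgroup.centralizer (Subgroup.zpowers u' : Set S.CZ) ↔
      (x : G) ∈ Subgroup.centralizer (Subgroup.zpowers u : Set G) := fun x => by
    rw [mem_centralizer_zpowers, mem_centralizer_zpowers]
    exact ⟨fun h => congrArg Subtype.val h, fun h => Subtype.ext h⟩
  set ψ := centSub hC hiff with hψ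
  set g' := mapBlock ψ.symm fu with hg'
  have hg'b : IsPBlock M g' := isPBlock_mapBlock _ hfu
  have hbar : pbar M (Subgroup.zpowers u) fu =
      emb S.CZ (pbar M (Subgroup.zpowers u') g') := by
    rw [← pbar_centSub hC hiff g', hg', mapBlock_symm]
  have hu'p : IsPElem p u' := by
    obtain ⟨k, hk⟩ := Block.isPElem_of_mem S.hP hu
    exact ⟨k, by rw [← Subgroup.orderOf_coe]; exact hk⟩
  have hpair : IsBrauerPairOf p M S.f (Subgroup.zpowers u') g' := by
    refine (isBrauerPairOf_iff S.hM).2 ⟨hu'p.isPGroup_zpowers, hg'b, S.hf, ?_⟩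
    have ho : Occ (Subgroup.zpowers u) fu (pbar M S.Z S.f) :=
      (step_of_le S.hM S.hP S.hmax.1.1.2 S.hle hle hzu
        ((Subgroup.zpowers_le.2 (S.le_H hu)).trans (centralizer_le_normalizer_self S.Z))).2.2.2.2.2.2
    refine emb_injective S.CZ ?_
    rw [map_mul, ← hbar, ← br_centSub hiff]
    exact ho
  set s' : Subgroup.centralizer (Subgroup.zpowers u' : Set S.CZ) := ψ.symm s with hs'
  have hs'r : ¬ p ∣ orderOf s' := by rwa [hs', MulEquiv.orderOf_eq]
  set φH : S.CZ → ℂ := fun h => φ h with hφH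
  have hφHc : IsClassFunction S.CZ φH := fun x y => hφ (x : G) (y : G)
  -- the two levels agree
  have htrans : sec M φ u (pbar M _ fu) (u * (s : G)) =
      sec M φH u' (pbar M _ g') (u' * (s' : S.CZ)) := by
    haveI := Fintype.ofFinite (Subgroup.centralizer (Subgroup.zpowers u : Set G))
    haveI := Fintype.ofFinite (Subgroup.centralizer (Subgroup.zpowers u' : Set S.CZ))
    rw [sec_eq_blockPart hφ hfu, sec_eq_blockPart hφHc hg'b,
      blockPart_eq_sum _ (isClassFunction_trans hφ u),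
      blockPart_eq_sum _ (isClassFunction_trans hφHc u'), ← Equiv.sum_comp ψ.toEquiv]
    refine Finset.sum_congr rfl fun k _ => ?_
    simp only [MulEquiv.toEquiv_eq_coe, EquivLike.coe_coe]
    congr 1
    rw [hg', ← ψ.symm_apply_apply k, blockCoeff_mapBlock, ψ.apply_symm_apply]
  rw [htrans]
  -- expand
  have hexp : φH = ∑ η : IrrCharacter S.CZ, classInner φH (η : S.CZ → ℂ) • (η : S.CZ → ℂ) :=
    Char.eq_sum_classInner_smul hφHc
  obtain ⟨c, hc⟩ : ∃ c : ℂ, ∀ η ∈ S.f, classInner φH (η : S.CZ → ℂ) = c := by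
    obtain ⟨η₁, hη₁⟩ := isPBlock_nonempty S.hf
    exact ⟨_, fun η hη => by
      rw [Char.classInner_conj_symm, hconst η hη η₁ hη₁, ← Char.classInner_conj_symm]⟩
  set Θ : S.CZ → ℂ := fun h =>
    ∑ η : IrrCharacter S.CZ, if η ∈ S.f then (η : S.CZ → ℂ) h else 0 with hΘ
  have hΘc : IsClassFunction S.CZ Θ := fun x y => by
    simp only [hΘ, Char.isClassFunction_of_isIrr (Subtype.prop _) x y]
  have hlin : sec M φH u' (pbar M _ g') (u' * (s' : S.CZ)) =
      c * sec M Θ u' (pbar M _ g') (u' * (s' : S.CZ)) := by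
    simp only [sec]
    set X := plift M (Subgroup.zpowers u') (pbar M (Subgroup.zpowers u') g') *
      MonoidAlgebra.single (u' * (s' : S.CZ)) (1 : ℂ) with hX
    conv_lhs => rw [hexp]
    simp only [pair_eq_sum, Finset.sum_apply, Pi.smul_apply, smul_eq_mul, hΘ, Finset.mul_sum]
    rw [Finset.sum_comm]
    conv_rhs => rw [Finset.sum_comm]
    refine Finset.sum_congr rfl fun η _ => ?_
    by_cases hη : η ∈ S.f
    · refine Finset.sum_congr rfl fun v _ => ?_
      rw [if_pos hη, hc η hη]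
      ring
    · have h0 := sec_eq_zero_of_not_mem S.hM S.hf hη hu'p hpair hs'r
      rw [sec, pair_eq_sum, ← hX] at h0
      simp only [if_neg hη, mul_zero, Finset.sum_const_zero, mul_left_comm (X.coeff _),
        ← Finset.mul_sum, h0]
  rw [hlin, sec_eq_blockPart hΘc hg'b]
  refine mul_eq_zero_of_right _ ?_
  have hzero : ∀ w : Subgroup.centralizer (Subgroup.zpowers u' : Set S.CZ), ¬ p ∣ orderOf w →
      Star.trans Θ u' w = (0 : Subgroup.centralizer (Subgroup.zpowers u' : Set S.CZ) → ℂ) w := by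
    intro w hw
    have hsing : p ∣ orderOf (u' * (w : S.CZ)) :=
      singular_mul hu'p (fun h => hu1 (congrArg Subtype.val h))
        (by rwa [Subgroup.orderOf_coe]) (mem_centralizer_zpowers.1 w.2)
    have h := S.model.sum_singular _ hsing
    rw [finsum_mem_eq_sum_ite] at h
    simpa [Star.trans, hΘ] using h
  rw [blockPart_congr S.hM hg'b (isClassFunction_trans hΘc u') (fun _ _ => rfl) hzero hs'r]
  haveI := Fintype.ofFinite (Subgroup.centralizer (Subgroup.zpowers u' : Set S.CZ))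
  rw [blockPart_eq_sum _ (fun _ _ => rfl)]
  simp

/-- Every member of the block meets some induced difference. -/
theorem exists_classInner_ne_zero [Fintype G] [Fintype S.CZ] {η₀ : IrrCharacter S.CZ}
    {χ : IrrCharacter G} (hχ : χ ∈ B) :
    ∃ η ∈ S.f, classInner (S.ind η η₀) (χ : G → ℂ) ≠ 0 := by
  by_contra hcon
  push Not at hcon
  have hφ := Char.isClassFunction_of_isIrr χ.2
  have hc : ∀ η ∈ S.f, classInner (η : S.CZ → ℂ) (fun h : S.CZ => (χ : G → ℂ) h) =
      classInner (η₀ : S.CZ → ℂ) (fun h : S.CZ => (χ : G → ℂ) h) := fun η hη => by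
    have h := hcon η hη
    rwa [S.classInner_ind η η₀ hφ, sub_eq_zero] at h
  obtain ⟨s, hs, hne⟩ := exists_sec_ne_zero_of_central S.hM S.hmax (S.Z_le S.z_mem)
    (Subgroup.mem_centralizer_iff.2 fun x hx => abelian_of_cyclic S.hcyc x hx S.z (S.Z_le S.z_mem))
    hχ
  exact hne (S.sec_eq_zero_of_const hφ (fun η hη η' hη' => (hc η hη).trans (hc η' hη').symm)
    (S.Z_le S.z_mem) S.z_ne_one hs)

/-- A combination of the block orthogonal to the induced differences vanishes at singular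
elements. -/
theorem eq_zero_of_singular [Fintype G] [Fintype S.CZ] (c : IrrCharacter G → ℂ)
    (hc : ∀ χ, χ ∉ B → c χ = 0) {φ : G → ℂ}
    (hφ : φ = fun g => ∑ χ : IrrCharacter G, c χ * (χ : G → ℂ) g)
    (hconst : ∀ η ∈ S.f, ∀ η' ∈ S.f, classInner (η : S.CZ → ℂ) (fun h : S.CZ => φ h) =
      classInner (η' : S.CZ → ℂ) (fun h : S.CZ => φ h))
    {g : G} (hg : p ∣ orderOf g) : φ g = 0 := by
  classical
  haveI : Fact p.Prime := ⟨S.hM.1⟩
  have hφc : IsClassFunction G φ := fun x y => by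
    simp only [hφ, Char.isClassFunction_of_isIrr (Subtype.prop _) x y]
  have hparts := exists_parts S.hM g
  have hup : IsPElem p (pp p g) := isPElem_pp g
  generalize pp p g = u at hparts hup
  obtain ⟨s, hs, hgs⟩ := hparts
  rw [← hgs, ← sum_pset_sec S.hM hφc s]
  refine Finset.sum_eq_zero fun a ha => ?_
  obtain ⟨fa, hfa, rfl⟩ := mem_pset.1 ha
  by_cases hpair : IsBrauerPairOf p M B (Subgroup.zpowers u) fa
  · obtain ⟨x, hx⟩ := exists_conj_le_maximal S.hM hpair S.hmax
    have hQ : Subgroup.zpowers (x * u * x⁻¹) = sj x (Subgroup.zpowers u) :=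
      ((MulAut.conj x).toMonoidHom.map_zpowers u).symm
    have hxu : x * u * x⁻¹ ∈ P := subgroup_le hx ⟨u, Subgroup.mem_zpowers u, rfl⟩
    have hu1 : x * u * x⁻¹ ≠ 1 := by
      rw [Ne, conj_eq_one_iff]
      intro h1
      subst h1
      rw [← hgs, one_mul, Subgroup.orderOf_coe] at hg
      exact hs hg
    have hbel : below p M P e (x * u * x⁻¹) = cj x (pbar M (Subgroup.zpowers u) fa) := by
      rw [below_eq S.hM S.hP S.hmax.1.1.2 hQ.symm (isPBlock_conjBlock _ x hfa) hx, pbar_conjBlock]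
    rw [← sec_conj hφc x ha, ← hbel, ← show x * u * x⁻¹ * (x * (s : G) * x⁻¹) =
      x * (u * (s : G)) * x⁻¹ by group]
    refine S.sec_eq_zero_of_const hφc hconst hxu hu1
      (s := ⟨x * (s : G) * x⁻¹, mem_centralizer_zpowers.2
        ((mem_centralizer_zpowers.1 s.2).map (MulAut.conj x).toMonoidHom)⟩) ?_
    rw [← Subgroup.orderOf_coe, orderOf_conj_eq, Subgroup.orderOf_coe]
    exact hs
  · haveI := Fintype.ofFinite G
    rw [sec, hφ, pair_eq_sum]
    simp only [Finset.mul_sum]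
    rw [Finset.sum_comm]
    refine Finset.sum_eq_zero fun χ _ => ?_
    by_cases hχ : χ ∈ B
    · have h0 := sec_eq_zero_of_not_pair S.hM S.hmax.1.2.1 hχ hup hfa hpair hs
      rw [sec, pair_eq_sum] at h0
      simp only [mul_left_comm _ (c χ), ← Finset.mul_sum, h0, mul_zero]
    · simp [hc χ hχ]

end Setup

end Cfsg.Agent.Lib.CyclicDefect
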