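import Cfsg.Agent.Lib.CyclicDefect.Nil
import Cfsg.Agent.Lib.CyclicDefect.Functor
import Cfsg.Agent.Lib.BrauerPairs.SubPairs
import Cfsg.Agent.Lib.BrauerPairs.CyclicInertial

/-!
# A block with cyclic defect group seen from its subgroup of order `p`
-/

set_option autoImplicit false
set_option linter.unusedSectionVars false
set_option linter.style.haveILetI false
set_option maxHeartbeats 800000

namespace Cfsg.Agent.Lib.CyclicDefect

open Cfsg Cfsg.Agent.Lib Cfsg.Agent.Lib.Block Cfsg.Agent.Lib.BrauerPairs Cfsg.Agent.Lib.Star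

universe u

variable {p : ℕ} {M : Ideal AlgInt} [M.IsPrime]

/-! ### More about the local block algebra -/

namespace Model

variable {H : Type u} [Group H] [Finite H] {b : Set (IrrCharacter H)} {z : H} {a : ℕ}
  (Md : Model p M b z a)

include Md in
theorem q_pos : 0 < p ^ a :=
  Nat.pos_of_ne_zero fun h => by
    haveI : Nontrivial (KG M H) := ⟨⟨_, _, Md.top_ne⟩⟩
    have h1 := Md.pow_eq_zero
    rw [h, pow_zero] at h1
    exact one_ne_zero h1

theorem central_mul (x : KG M H) (j : ℕ) : Md.D ^ j * x = x * Md.D ^ j :=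
  ((Md.central.pow j).commute x).eq

/-- The corner in terms of its residue. -/
theorem corner_split (x : KG M H) :
    ∃ (α : ResField M) (w : KG M H), Md.i0 * x * Md.i0 = α • Md.i0 + Md.D * w ∧
      Md.i0 * w * Md.i0 = w := by
  classical
  obtain ⟨α, hα⟩ := Md.corner x
  let o : Fin (p ^ a) := ⟨0, Md.q_pos⟩
  refine ⟨α o, ∑ i ∈ Finset.univ.erase o, α i • (Md.D ^ ((i : ℕ) - 1) * Md.i0), ?_, ?_⟩
  · rw [hα, ← Finset.add_sum_erase _ _ (Finset.mem_univ o), pow_zero, one_mul, Finset.mul_sum]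
    congr 1
    refine Finset.sum_congr rfl fun i hi => ?_
    have h0 : (i : ℕ) ≠ 0 := fun h => (Finset.mem_erase.1 hi).1 (Fin.ext h)
    rw [mul_smul_comm, ← mul_assoc, ← pow_succ', Nat.sub_add_cancel (Nat.pos_of_ne_zero h0)]
  · rw [Finset.mul_sum, Finset.sum_mul]
    refine Finset.sum_congr rfl fun i _ => ?_
    rw [mul_smul_comm, smul_mul_assoc, ← mul_assoc Md.i0, ← Md.central_mul, mul_assoc (Md.D ^ _),
      mul_assoc (Md.D ^ _), Md.idem.eq, Md.idem.eq]

theorem smul_top_eq_zero {α : ResField M} (h : α • (Md.D ^ (p ^ a - 1) * Md.i0) = 0) : α = 0 :=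
  (smul_eq_zero.1 h).resolve_right Md.top_ne

theorem top_mul_D (w : KG M H) : Md.D ^ (p ^ a - 1) * (Md.D * w) = 0 := by
  rw [← mul_assoc, ← pow_succ, Nat.sub_add_cancel Md.q_pos, Md.pow_eq_zero, zero_mul]

theorem top_mul_split {α : ResField M} {x w : KG M H} (h : x = α • Md.i0 + Md.D * w) :
    Md.D ^ (p ^ a - 1) * x = α • (Md.D ^ (p ^ a - 1) * Md.i0) := by
  rw [h, mul_add, Md.top_mul_D, add_zero, mul_smul_comm]

/-- The idempotent `i0` is primitive. -/
theorem primitive {e : KG M H} (he : IsIdempotentElem e) (hie : Md.i0 * e * Md.i0 = e) :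
    e = 0 ∨ e = Md.i0 := by
  obtain ⟨α, w, hw, hww⟩ := Md.corner_split e
  rw [hie] at hw
  have h1 := Md.top_mul_split hw
  have h2 : Md.D ^ (p ^ a - 1) * e = (α * α) • (Md.D ^ (p ^ a - 1) * Md.i0) := by
    have hie' : Md.i0 * e = e := by
      rw [← hie, ← mul_assoc, ← mul_assoc, Md.idem.eq]
    conv_lhs => rw [← he.eq, ← mul_assoc, h1, smul_mul_assoc, mul_assoc, hie', h1, smul_smul]
  have h3 : α * α = α := sub_eq_zero.1 (Md.smul_top_eq_zero (by
    rw [sub_smul, ← h2, h1, sub_self]))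
  rcases IsIdempotentElem.iff_eq_zero_or_one.1 h3 with h0 | h0
  · left
    rw [h0, zero_smul, zero_add] at hw
    have := he.pow_eq Md.q_pos.ne'
    rw [← this, hw, (Md.central.commute w).mul_pow, Md.pow_eq_zero, zero_mul]
  · right
    rw [h0, one_smul] at hw
    have hid : IsIdempotentElem (Md.i0 - e) := by
      have hl : Md.i0 * e = e := by rw [← hie, ← mul_assoc, ← mul_assoc, Md.idem.eq]
      have hr : e * Md.i0 = e := by rw [← hie, mul_assoc, Md.idem.eq]
      rw [IsIdempotentElem, sub_mul, mul_sub, mul_sub, Md.idem.eq, hl, hr, he.eq, sub_self, sub_zero]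
    have hn : Md.i0 - e = Md.D * (-w) := by rw [hw, mul_neg]; abel
    have := hid.pow_eq Md.q_pos.ne'
    rw [hn, (Md.central.commute _).mul_pow, Md.pow_eq_zero, zero_mul, ← hn, eq_comm, sub_eq_zero]
      at this
    exact this.symm

/-- A central nilpotent element of the block is a multiple of `D`. -/
theorem central_nilpotent {c : KG M H} (hc : IsClassCoeff c) (hbc : bar M b * c = c)
    (hn : c ^ p ^ a = 0) : ∃ w, c = Md.D * w := by
  obtain ⟨n, x, y, hxy⟩ := Md.full
  obtain ⟨α, w, hw, -⟩ := Md.corner_split c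
  have hce : c = α • bar M b + Md.D * ∑ j, x j * w * y j := by
    calc c = ∑ j, x j * (Md.i0 * c * Md.i0) * y j := by
          conv_lhs => rw [← hbc, hxy, Finset.sum_mul]
          refine Finset.sum_congr rfl fun j _ => ?_
          rw [← (hc.commute Md.i0).eq, mul_assoc c, Md.idem.eq]
          simp only [mul_assoc]
          rw [← (hc.commute (y j)).eq, ← mul_assoc Md.i0 c, ← (hc.commute Md.i0).eq, mul_assoc]
      _ = _ := by
          rw [hw, hxy, Finset.smul_sum, Finset.mul_sum, ← Finset.sum_add_distrib]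
          refine Finset.sum_congr rfl fun j _ => ?_
          rw [mul_add, add_mul, mul_smul_comm, smul_mul_assoc]
          simp only [← mul_assoc, (Md.central.commute (x j)).eq]
  have hpow : ∀ j : ℕ, Md.D ^ (p ^ a - 1) * Md.i0 * c ^ j =
      α ^ j • (Md.D ^ (p ^ a - 1) * Md.i0) := by
    intro j
    induction j with
    | zero => simp
    | succ j ih =>
      rw [pow_succ, ← mul_assoc, ih, smul_mul_assoc, pow_succ, mul_smul]
      congr 1
      rw [hce, mul_add, mul_assoc _ Md.i0 (Md.D * _), ← mul_assoc Md.i0,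
        ← (Md.central.commute Md.i0).eq, mul_assoc Md.D, Md.top_mul_D, add_zero, mul_smul_comm,
        mul_assoc, ← ((isClassCoeff_bar b).commute _).eq, Md.i0_mem]
  have h0 := hpow (p ^ a)
  rw [hn, mul_zero] at h0
  have := eq_zero_of_pow_eq_zero (Md.smul_top_eq_zero h0.symm)
  exact ⟨_, by rw [hce, this, zero_smul, zero_add]⟩

/-- An equivalence between `i0` and another primitive idempotent of the block. -/
theorem exists_equiv {i1 : KG M H} (hi1 : IsIdempotentElem i1) (hbi : bar M b * i1 = i1)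
    (hne : i1 ≠ 0) (hprim : ∀ e, IsIdempotentElem e → i1 * e * i1 = e → e = 0 ∨ e = i1) :
    ∃ x y : KG M H, Md.i0 * x = x ∧ x * i1 = x ∧ i1 * y = y ∧ y * Md.i0 = y ∧
      x * y = Md.i0 ∧ y * x = i1 := by
  obtain ⟨n, xs, ys, hxy⟩ := Md.full
  obtain ⟨j, l, α, w, hw, hww, hα⟩ : ∃ j l, ∃ (α : ResField M) (w : KG M H),
      Md.i0 * (ys j * i1 * xs l) * Md.i0 = α • Md.i0 + Md.D * w ∧ Md.i0 * w * Md.i0 = w ∧
        α ≠ 0 := by
    by_contra hcon
    push Not at hcon
    choose α w hw hww using fun j l => Md.corner_split (ys j * i1 * xs l)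
    have hexp : i1 = ∑ l, ∑ j, i1 * xs l * (Md.i0 * (ys l * i1 * xs j) * Md.i0) * (ys j * i1) := by
      have h1 : i1 = ∑ j, i1 * xs j * Md.i0 * ys j * i1 := by
        calc i1 = i1 * bar M b * i1 := by rw [mul_assoc, hbi, hi1.eq]
          _ = _ := by rw [hxy, Finset.mul_sum, Finset.sum_mul]; simp only [← mul_assoc]
      conv_lhs => rw [← hi1.eq, h1, Finset.sum_mul]
      refine Finset.sum_congr rfl fun l _ => ?_
      rw [Finset.mul_sum]
      refine Finset.sum_congr rfl fun j _ => ?_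
      simp only [mul_assoc]
      rw [← mul_assoc i1 i1, hi1.eq]
    have hD : i1 = Md.D * ∑ l, ∑ j, i1 * xs l * w l j * (ys j * i1) := by
      rw [Finset.mul_sum]
      conv_lhs => rw [hexp]
      refine Finset.sum_congr rfl fun l _ => ?_
      rw [Finset.mul_sum]
      refine Finset.sum_congr rfl fun j _ => ?_
      rw [hw, hcon l j _ _ (hw l j) (hww l j), zero_smul, zero_add]
      simp only [← mul_assoc, (Md.central.commute i1).eq]
      rw [mul_assoc i1 (xs l), ← (Md.central.commute (xs l)).eq, ← mul_assoc]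
    exact hne (by
      rw [← hi1.pow_eq Md.q_pos.ne', hD, (Md.central.commute _).mul_pow, Md.pow_eq_zero, zero_mul])
  set t : KG M H := Md.D * (α⁻¹ • w) with ht
  set S : KG M H := ∑ i ∈ Finset.range (p ^ a), (-t) ^ i with hS
  have hit : Md.i0 * t = t ∧ t * Md.i0 = t := by
    have h1 : Md.i0 * w = w := by rw [← hww, ← mul_assoc, ← mul_assoc, Md.idem.eq]
    have h2 : w * Md.i0 = w := by rw [← hww, mul_assoc, Md.idem.eq]
    constructor
    · rw [ht, ← mul_assoc, ← (Md.central.commute _).eq, mul_assoc, mul_smul_comm, h1]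
    · rw [ht, mul_assoc, smul_mul_assoc, h2]
  have hcS : Commute Md.i0 S := Commute.sum_right _ _ _ fun i _ =>
    ((show Commute Md.i0 t from hit.1.trans hit.2.symm).neg_right).pow_right i
  have hgeo : (1 + t) * S = 1 := by
    have h := mul_neg_geom_sum (-t) (p ^ a)
    rw [sub_neg_eq_add] at h
    rw [hS, h, neg_pow, ht, (Md.central.commute _).mul_pow, Md.pow_eq_zero, zero_mul, mul_zero,
      sub_zero]
  set u := Md.i0 * (ys j * i1 * xs l) * Md.i0 with hu
  have hu' : u = α • ((1 + t) * Md.i0) := by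
    rw [add_mul, one_mul, hit.2, ht, smul_add, mul_smul_comm, smul_smul, mul_inv_cancel₀ hα,
      one_smul, hw]
  set v := α⁻¹ • (S * Md.i0) with hv
  have huv : u * v = Md.i0 := by
    rw [hu', hv, smul_mul_smul_comm, mul_inv_cancel₀ hα, one_smul, mul_assoc, ← mul_assoc Md.i0,
      hcS.eq, mul_assoc S, Md.idem.eq, ← mul_assoc, hgeo, one_mul]
  have hvi : v * Md.i0 = v := by rw [hv, smul_mul_assoc, mul_assoc, Md.idem.eq]
  refine ⟨Md.i0 * ys j * i1, i1 * xs l * Md.i0 * v, ?_, ?_, ?_, ?_, ?_, ?_⟩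
  · rw [← mul_assoc, ← mul_assoc, Md.idem.eq]
  · rw [mul_assoc, hi1.eq]
  · rw [← mul_assoc, ← mul_assoc, ← mul_assoc, hi1.eq]
  · rw [mul_assoc, hvi]
  · calc _ = Md.i0 * (ys j * (i1 * i1) * xs l) * Md.i0 * v := by simp only [mul_assoc]
      _ = u * v := by rw [hi1.eq]
      _ = _ := huv
  · set x := Md.i0 * ys j * i1 with hx
    set y := i1 * xs l * Md.i0 * v with hy
    have hxy1 : x * y = Md.i0 := by
      calc x * y = Md.i0 * (ys j * (i1 * i1) * xs l) * Md.i0 * v := by
            simp only [hx, hy, mul_assoc]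
        _ = _ := by rw [hi1.eq]; exact huv
    have hy1 : y * Md.i0 = y := by rw [hy, mul_assoc, hvi]
    have hyx : IsIdempotentElem (y * x) := by
      rw [IsIdempotentElem, mul_assoc, ← mul_assoc x, hxy1, ← mul_assoc, hy1]
    refine (hprim _ hyx ?_).resolve_left fun h => ?_
    · rw [hy, hx]; simp only [← mul_assoc, hi1.eq]; rw [mul_assoc _ i1 i1, hi1.eq]
    · have := congrArg (fun c => x * c * y) h
      simp only [← mul_assoc, hxy1, mul_zero, zero_mul, Md.idem.eq] at this
      rw [mul_assoc, hxy1, Md.idem.eq] at this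
      exact Md.top_ne (by rw [this, mul_zero])

end Model

/-! ### The setup -/

variable {G : Type u} [Group G] [Finite G] {B : Set (IrrCharacter G)} {P : Subgroup G}
  {e : CBlock P}

/-- A block with cyclic defect group and the local block at the subgroup of order `p`. -/
structure Setup (p : ℕ) (M : Ideal AlgInt) [M.IsPrime] (B : Set (IrrCharacter G)) (P : Subgroup G)
    (e : CBlock P) where
  hM : IsPModular p M
  hmax : IsMaximalBrauerPair p M B P e
  hcyc : IsCyclic P
  hP1 : P ≠ ⊥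
  z : G
  Z_le : Subgroup.zpowers z ≤ P
  z_ord : orderOf z = p
  f : CBlock (Subgroup.zpowers z)
  hle : SubpairLE p M (Subgroup.zpowers z) f P e
  a : ℕ
  a_pos : 0 < a
  card_P : Nat.card P = p ^ a
  zH : Subgroup.centralizer (Subgroup.zpowers z : Set G)
  zH_mem : (zH : G) ∈ Subgroup.zpowers z
  zH_ord : orderOf zH = p
  model : Model p M f zH a
  n : G
  m : ℕ
  m_dvd : m ∣ p - 1
  m_eq : (Subgroup.centralizer (P : Set G)).relIndex (stab M P e) = m
  n_stab : n ∈ stab M P e
  n_pow : n ^ m ∈ Subgroup.centralizer (Subgroup.zpowers z : Set G)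
  n_min : ∀ i < m, n ^ i ∈ Subgroup.centralizer (Subgroup.zpowers z : Set G) → i = 0
  cover : ∀ g ∈ stab M (Subgroup.zpowers z) f, ∃ i < m,
    (n ^ i)⁻¹ * g ∈ Subgroup.centralizer (Subgroup.zpowers z : Set G)
  mem_Z : ∀ x ∈ P, x ^ p = 1 → x ∈ Subgroup.zpowers z

/-- The subgroup of order `p` of the defect group. -/
abbrev Setup.Z (S : Setup p M B P e) : Subgroup G := Subgroup.zpowers S.z

theorem exists_setup (hM : IsPModular p M) (hmax : IsMaximalBrauerPair p M B P e)
    (hcyc : IsCyclic P) (hP1 : P ≠ ⊥) : Nonempty (Setup p M B P e) := by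
  classical
  haveI : Fact p.Prime := ⟨hM.1⟩
  haveI := hcyc
  have hP : IsPGroup p P := hmax.1.1.1
  have he : IsPBlock M e := hmax.1.1.2
  have hab := abelian_of_cyclic hcyc
  have hdvd : p ∣ Nat.card P := by
    obtain ⟨n, hn⟩ := IsPGroup.iff_card.1 hP
    rcases n with _ | n
    · exact absurd (Subgroup.card_eq_one.1 (by simpa using hn)) hP1
    · rw [hn]; exact dvd_pow_self p n.succ_ne_zero
  obtain ⟨z0, hz0⟩ := exists_prime_orderOf_dvd_card' p hdvd
  set z : G := (z0 : G) with hz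
  have hzo : orderOf z = p := (Subgroup.orderOf_coe z0).trans hz0
  set Z := Subgroup.zpowers z with hZ
  have hZP : Z ≤ P := Subgroup.zpowers_le.2 z0.2
  have hmemZ : ∀ x ∈ P, x ^ p = 1 → x ∈ Z := by
    intro x hx hxp
    haveI := Fintype.ofFinite P
    by_contra hxZ
    have h1 : (insert (⟨x, hx⟩ : P) ((Finset.range p).image fun i => z0 ^ i)) ⊆
        Finset.univ.filter fun y : P => y ^ p = 1 := by
      intro y hy
      rw [Finset.mem_filter]
      refine ⟨Finset.mem_univ _, ?_⟩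
      rcases Finset.mem_insert.1 hy with rfl | hy
      · exact Subtype.ext hxp
      · obtain ⟨i, -, rfl⟩ := Finset.mem_image.1 hy
        rw [← pow_mul, mul_comm, pow_mul, ← hz0, pow_orderOf_eq_one, one_pow]
    have h2 := (Finset.card_le_card h1).trans (IsCyclic.card_pow_eq_one_le hM.1.pos)
    rw [Finset.card_insert_of_notMem, Finset.card_image_of_injOn, Finset.card_range] at h2
    · omega
    · intro i hi j hj hij
      exact pow_injOn_Iio_orderOf (x := z0) (by simpa [hz0] using hi) (by simpa [hz0] using hj) hij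
    · intro h
      obtain ⟨i, -, hi⟩ := Finset.mem_image.1 h
      exact hxZ (by
        have : z ^ i = x := congrArg Subtype.val hi
        exact this ▸ pow_mem (Subgroup.mem_zpowers z) i)
  obtain ⟨f, hf, hle⟩ := exists_le hM hP he Z hZP
  set H := Subgroup.centralizer (Z : Set G) with hH
  have hPH : P ≤ H := le_centralizer_of_abelian hab hZP
  have ho := stab_over hM hP he
  have hTC : ∀ t ∈ stab M P e, t ∈ H → t ∈ Subgroup.centralizer (P : Set G) := fun t ht htH =>
    mem_centralizer_of_fix hM hmax hcyc ht z0.2 (fun h => by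
      rw [show z = 1 from h, orderOf_one] at hzo; exact hM.1.ne_one hzo.symm)
      (by rw [← Subgroup.mem_centralizer_iff.1 htH z (Subgroup.mem_zpowers z), mul_inv_cancel_right])
  have hTN : stab M P e ≤ Subgroup.normalizer (Z : Set G) :=
    ho.norm.trans (normalizer_le_of_cyclic hcyc hZP)
  -- the local block
  obtain ⟨e', he', hst⟩ := exists_pull_maximal hM hmax hab hle
  have hcyc' : IsCyclic (P.subgroupOf H) :=
    (Subgroup.subgroupOfEquivOfLe hPH).isCyclic.2 hcyc
  have hP1' : P.subgroupOf H ≠ ⊥ := by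
    rw [Ne, ← Subgroup.card_eq_one, card_subgroupOf hPH, Subgroup.card_eq_one]
    exact hP1
  obtain ⟨a, ha, zH, hzH, hzHo, ⟨Md⟩⟩ := exists_model hM he' hcyc' hP1'
    (fun x hx => Subgroup.mem_centralizer_iff.2 fun u hu => Subtype.ext
      (Subgroup.mem_centralizer_iff.1 (hTC _ ((hst x).1 hx) x.2) _ (Subgroup.mem_subgroupOf.1 hu)))
    fun x hx hxo h => Subtype.ext (Subgroup.mem_centralizer_iff.1 h.2 _ (hmemZ _
      (Subgroup.mem_subgroupOf.1 hx) (by
        rw [← Subgroup.coe_pow, ← hxo, pow_orderOf_eq_one, Subgroup.coe_one])))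
  rw [card_subgroupOf hPH] at ha
  have hzHZ : (zH : G) ∈ Z := hmemZ _ (Subgroup.mem_subgroupOf.1 hzH) (by
    rw [← Subgroup.coe_pow, ← hzHo, pow_orderOf_eq_one, Subgroup.coe_one])
  -- the inertial quotient
  obtain ⟨φ, hφ⟩ := exists_inertial_embedding hM hmax hcyc hP1
  obtain ⟨g0, hg0⟩ := IsCyclic.exists_generator (α := φ.range)
  obtain ⟨n, hn⟩ := g0.2
  set m := (Subgroup.centralizer (P : Set G)).relIndex (stab M P e) with hm
  have hmr : m = Nat.card φ.range := by
    rw [hm, Subgroup.relIndex, ← hφ, Subgroup.index_ker]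
  have hord : orderOf g0 = m := by rw [hmr, orderOf_eq_card_of_forall_mem_zpowers hg0]
  have hker : ∀ (i : ℕ) (t : stab M P e),
      ((n ^ i)⁻¹ * t : stab M P e) ∈ φ.ker ↔ φ t = φ n ^ i := fun i t => by
    rw [MonoidHom.mem_ker, map_mul, map_inv, inv_mul_eq_one, map_pow, eq_comm]
  have hnpow : ∀ i, φ n ^ i = 1 ↔ m ∣ i := fun i => by
    rw [hn, ← hord, ← Subgroup.orderOf_coe, orderOf_dvd_iff_pow_eq_one]
  have hmpos : 0 < m := hmr ▸ Nat.card_pos
  have hCH : Subgroup.centralizer (P : Set G) ≤ H :=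
    Subgroup.centralizer_le (SetLike.coe_subset_coe.2 hZP)
  refine ⟨{
    hM := hM, hmax := hmax, hcyc := hcyc, hP1 := hP1, z := z, Z_le := hZP
    z_ord := hzo, f := f, hle := hle, a := a, a_pos := Md.a_pos, card_P := ha
    zH := zH, zH_mem := hzHZ, zH_ord := hzHo, model := Md, n := (n : G), m := m
    m_dvd := ?_, m_eq := rfl, n_stab := n.2, n_pow := ?_, n_min := ?_, cover := ?_
    mem_Z := hmemZ }⟩
  · have := φ.range.card_subgroup_dvd_card
    rwa [← hmr, Nat.card_eq_fintype_card, ZMod.card_units] at this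
  · refine hCH ?_
    have : (n ^ m : stab M P e) ∈ φ.ker := by
      rw [MonoidHom.mem_ker, map_pow, hnpow]
    rw [hφ] at this
    simpa using Subgroup.mem_subgroupOf.1 this
  · intro i hi hmem
    have h1 : (n ^ i : stab M P e) ∈ φ.ker := by
      rw [hφ, Subgroup.mem_subgroupOf]
      exact hTC _ (n ^ i).2 (by simpa using hmem)
    rw [MonoidHom.mem_ker, map_pow, hnpow] at h1
    exact Nat.eq_zero_of_dvd_of_lt h1 hi
  · intro g hg
    obtain ⟨t, ht, c, hc, rfl⟩ := stab_le_of_abelian hM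
      (isBlockFusionSystemOn_pairSystem hM hmax) hab hle g hg
    obtain ⟨k, hk⟩ := Subgroup.mem_zpowers_iff.1 (hg0 ⟨φ ⟨t, ht⟩, ⟨t, ht⟩, rfl⟩)
    refine ⟨(k % m).toNat, ?_, ?_⟩
    · have := Int.emod_lt_of_pos k (Int.natCast_pos.2 hmpos)
      omega
    rw [← mul_assoc]
    refine mul_mem (hCH ?_) hc
    have h1 : ((n ^ (k % m).toNat)⁻¹ * ⟨t, ht⟩ : stab M P e) ∈ φ.ker := by
      rw [hker, hn, ← zpow_natCast, Int.toNat_of_nonneg (Int.emod_nonneg _ (by omega)),
        show (φ ⟨t, ht⟩) = ((g0 ^ k : φ.range) : (ZMod p)ˣ) from (congrArg Subtype.val hk).symm,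
        Subgroup.coe_zpow]
      conv_lhs => rw [← zpow_mod_orderOf, Subgroup.orderOf_coe, hord]
    rw [hφ] at h1
    simpa using Subgroup.mem_subgroupOf.1 h1

namespace Setup

variable (S : Setup p M B P e)

theorem hP (S : Setup p M B P e) : IsPGroup p P := S.hmax.1.1.1

theorem hf (S : Setup p M B P e) : IsPBlock M S.f := isPBlock_of_le S.hmax.1.1.2 S.hle

theorem le_H : P ≤ Subgroup.centralizer (S.Z : Set G) :=
  le_centralizer_of_abelian (abelian_of_cyclic S.hcyc) S.Z_le

theorem z_mem : S.z ∈ S.Z := Subgroup.mem_zpowers _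

theorem z_ne_one : S.z ≠ 1 := fun h => by
  have := S.z_ord
  rw [h, orderOf_one] at this
  exact S.hM.1.ne_one this.symm

theorem m_pos : 0 < S.m := Nat.pos_of_dvd_of_pos S.m_dvd (Nat.sub_pos_of_lt S.hM.1.one_lt)

theorem not_dvd_m : ¬ p ∣ S.m := fun h => by
  have h1 := Nat.le_of_dvd S.m_pos h
  have h2 := Nat.le_of_dvd (Nat.sub_pos_of_lt S.hM.1.one_lt) S.m_dvd
  have := S.hM.1.pos
  omega

theorem n_normalizer : S.n ∈ Subgroup.normalizer (S.Z : Set G) :=
  normalizer_le_of_cyclic S.hcyc S.Z_le ((stab_over S.hM S.hP S.hmax.1.1.2).norm S.n_stab)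

theorem n_fix : S.n ∈ stab M S.Z S.f :=
  inf_normalizer_stab_le S.hM S.hP S.hmax.1.1.2 S.hle ⟨S.n_stab, S.n_normalizer⟩

/-- A nontrivial element of `P` has `z` among its powers. -/
theorem z_mem_zpowers {x : G} (hx : x ∈ P) (hx1 : x ≠ 1) : S.z ∈ Subgroup.zpowers x := by
  haveI : Fact p.Prime := ⟨S.hM.1⟩
  have hQ : Subgroup.zpowers x ≤ P := Subgroup.zpowers_le.2 hx
  have hdvd : p ∣ Nat.card (Subgroup.zpowers x) := by
    obtain ⟨n, hn⟩ := IsPGroup.iff_card.1 (S.hP.to_le hQ)
    rcases n with _ | n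
    · exact absurd (Subgroup.zpowers_eq_bot.1 (Subgroup.card_eq_one.1 (by simpa using hn))) hx1
    · rw [hn]; exact dvd_pow_self p n.succ_ne_zero
  obtain ⟨y, hy⟩ := exists_prime_orderOf_dvd_card' p hdvd
  have hyo : orderOf (y : G) = p := by rw [Subgroup.orderOf_coe, hy]
  have hyZ := S.mem_Z _ (hQ y.2) (hyo ▸ pow_orderOf_eq_one _)
  have hZy : Subgroup.zpowers (y : G) = S.Z :=
    Subgroup.eq_of_le_of_card_ge (Subgroup.zpowers_le.2 hyZ) (by
      rw [Nat.card_zpowers, Nat.card_zpowers, S.z_ord, hyo])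
  exact (Subgroup.zpowers_le.2 y.2) (hZy ▸ S.z_mem)

theorem outer {g : G} (hg : g ∉ Subgroup.normalizer (S.Z : Set G)) {u : G} (hu : u ∈ P)
    (hgu : g⁻¹ * u * g ∈ P) : u = 1 := by
  by_contra h1
  obtain ⟨k, hk⟩ := Subgroup.mem_zpowers_iff.1 (S.z_mem_zpowers hu h1)
  have hconj : g⁻¹ * S.z * g = (g⁻¹ * u * g) ^ k := by
    have := conj_zpow (i := k) (a := g⁻¹) (b := u)
    rw [inv_inv, hk] at this
    exact this.symm
  have hz' : g⁻¹ * S.z * g ∈ S.Z := by
    refine S.mem_Z _ (hconj ▸ P.zpow_mem hgu k) ?_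
    rw [show g⁻¹ * S.z * g = g⁻¹ * S.z * g⁻¹⁻¹ by rw [inv_inv], conj_pow,
      orderOf_dvd_iff_pow_eq_one.1 S.z_ord.dvd, mul_one, inv_inv, inv_mul_cancel]
  refine hg ?_
  rw [← inv_mem_iff]
  refine Subgroup.mem_normalizer_iff_map_conj_eq.2
    (Subgroup.eq_of_le_of_card_ge ?_ (card_map_conj S.Z g⁻¹).ge)
  rintro _ ⟨y, hy, rfl⟩
  rw [SetLike.mem_coe] at hy
  obtain ⟨l, rfl⟩ := Subgroup.mem_zpowers_iff.1 hy
  show g⁻¹ * S.z ^ l * g⁻¹⁻¹ ∈ S.Z
  rw [← conj_zpow, inv_inv]
  exact S.Z.zpow_mem hz' l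

theorem moved {x : G} (hx : x ∉ Subgroup.centralizer (S.Z : Set G)) {u : G} (hu : u ∈ P)
    (hux : u * x * u⁻¹ = x) : u = 1 := by
  by_contra h1
  obtain ⟨k, hk⟩ := Subgroup.mem_zpowers_iff.1 (S.z_mem_zpowers hu h1)
  refine hx ?_
  rw [Subgroup.mem_centralizer_iff]
  intro y hy
  obtain ⟨l, rfl⟩ := Subgroup.mem_zpowers_iff.1 (SetLike.mem_coe.1 hy)
  rw [← hk]
  exact (((show Commute u x from mul_inv_eq_iff_eq_mul.1 hux).zpow_left k).zpow_left l).eq

/-- An element whose trace from the defect group is the block. -/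
theorem exists_trace :
    ∃ A ∈ inH M (Subgroup.centralizer (S.Z : Set G)), (∀ u ∈ P, cj u A = A) ∧
      ∑ᶠ x ∈ {x : G ⧸ P | x.out ∈ Subgroup.centralizer (S.Z : Set G)}, cj x.out A =
        pbar M S.Z S.f := by
  classical
  haveI : Fact p.Prime := ⟨S.hM.1⟩
  haveI := resField_charP (M := M) S.hM
  haveI := Fintype.ofFinite G
  obtain ⟨e', he', -⟩ := exists_pull_maximal S.hM S.hmax (abelian_of_cyclic S.hcyc) S.hle
  set H := Subgroup.centralizer (S.Z : Set G) with hH
  haveI := Fintype.ofFinite H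
  have hD := isDefectGroup_of_maximal S.hM he'
  obtain ⟨-, hDc, g, hg, hgD⟩ := IsDefectGroup.props S.hM S.hf hD
  obtain ⟨ξ, hξ⟩ := isPBlock_nonempty S.hf
  have hccne := ((isDefectClass_iff S.hf hξ).1 hg).2
  set Cg := Subgroup.centralizer ({g} : Set H) with hCg
  have hPC : P.subgroupOf H ≤ Cg := le_centralizer_singleton_iff.2 hgD
  obtain ⟨N, hN⟩ : Nat.card P ∣ Nat.card Cg :=
    card_subgroupOf S.le_H ▸ Subgroup.card_dvd_of_le hPC
  have hNp : (N : ResField M) ≠ 0 := by
    intro h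
    have hpN := (CharP.cast_eq_zero_iff (ResField M) p N).1 h
    have h1 := (defectClass_facts S.hM S.hf hg).1
    have hPf : Nat.card P = p ^ blockDefect p S.f := by rw [← card_subgroupOf S.le_H, hDc]
    have hdiv : p ^ (blockDefect p S.f + 1) ∣ Nat.card Cg := by
      rw [hN, hPf, pow_succ]; exact Nat.mul_dvd_mul_left _ hpN
    have := (S.hM.1.pow_dvd_iff_le_factorization Nat.card_pos.ne').1 hdiv
    exact Nat.not_succ_le_self _ (this.trans h1.le)
  set zc : KG M H := bar M S.f * classSum (ResField M) g with hzc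
  have hzcc : IsClassCoeff zc := (isClassCoeff_bar _).mul (isClassCoeff_classSum g)
  set lamv := redC M (centralChar (ξ : H → ℂ) g) with hlamv
  have hcl : ∀ η : IrrCharacter H,
      lam M η (classSum (ResField M) g) = redC M (centralChar (η : H → ℂ) g) := fun η => by
    rw [← omega_classSum_irr, ← lam_toF η (isClassCoeff_classSum g) (intR_classSum g)]
    congr 1
    refine alg_ext fun y => ?_
    rw [coeff_toF, coeff_classSum, coeff_classSum]
    split_ifs <;> simp [redC_one, redC_zero]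
  have hnil : IsNilpotent (zc - lamv • bar M S.f) := by
    refine isNilpotent_of_lam_eq_zero (hzcc.sub ((isClassCoeff_bar _).smul _)) fun η => ?_
    rw [lam_sub, lam_smul, hzc, lam_mul η (isClassCoeff_bar _) (isClassCoeff_classSum g),
      lam_bar S.hf]
    split_ifs with hη
    · rw [one_mul, mul_one, hcl, hlamv, sameBlock_iff.1 (sameBlock_of_mem S.hf hξ hη), sub_self]
    · ring
  obtain ⟨k, hk⟩ := hnil
  set d : KG M H := lamv⁻¹ • (zc - lamv • bar M S.f) with hd
  have hdc : IsClassCoeff d := ((hzcc.sub ((isClassCoeff_bar _).smul _))).smul _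
  set c : KG M H := lamv⁻¹ • ∑ i ∈ Finset.range k, (-d) ^ i with hc
  have hcc : IsClassCoeff c :=
    (isClassCoeff_sum _ fun i _ => (isClassCoeff_iff_commute.2 fun y =>
      ((hdc.commute y).neg_left).pow_left i)).smul _
  have hinv : zc * c = bar M S.f := by
    have hz : zc = lamv • ((1 + d) * bar M S.f) := by
      rw [add_mul, one_mul, smul_add, hd, smul_mul_assoc, smul_smul, mul_inv_cancel₀ hccne, one_smul,
        sub_mul, smul_mul_assoc, (isIdempotentElem_bar S.hf).eq, hzc, mul_assoc,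
        ← ((isClassCoeff_bar S.f).commute (classSum _ g)).eq, ← mul_assoc,
        (isIdempotentElem_bar S.hf).eq, add_sub_cancel]
    rw [hz, hc, smul_mul_smul_comm, mul_inv_cancel₀ hccne, one_smul, mul_assoc,
      ((isClassCoeff_bar S.f).commute _).eq, ← mul_assoc,
      show (1 + d) * ∑ i ∈ Finset.range k, (-d) ^ i = 1 by
        have h := mul_neg_geom_sum (-d) k
        rw [sub_neg_eq_add] at h
        rw [h, neg_pow, hd, smul_pow, hk, smul_zero, mul_zero, sub_zero],
      one_mul]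
  set A0 : KG M H := MonoidAlgebra.single g 1 * (bar M S.f * c) with hA0
  refine ⟨(N : ResField M)⁻¹ • emb H A0, smul_mem_inH _ ⟨_, rfl⟩, fun u hu => ?_, ?_⟩
  · have hug : Commute (⟨u, S.le_H hu⟩ : H) g := Subgroup.mem_centralizer_iff.1 hgD _
      (Subgroup.mem_subgroupOf.2 hu)
    rw [map_smul, show u = ((⟨u, S.le_H hu⟩ : H) : G) from rfl, cj_emb, hA0, map_mul,
      isClassCoeff_iff_cj.1 ((isClassCoeff_bar _).mul hcc)]
    congr 3
    rw [cj_eq_mul, MonoidAlgebra.single_mul_single, MonoidAlgebra.single_mul_single, one_mul,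
      one_mul, hug.eq, mul_inv_cancel_right]
  set T : Finset (G ⧸ P) := Finset.univ.filter fun x => x.out ∈ H with hT
  rw [show {x : G ⧸ P | x.out ∈ H} = ↑T by simp [hT], finsum_mem_coe_finset]
  have hterm : ∀ x ∈ T, cj x.out ((N : ResField M)⁻¹ • emb H A0) = (N : ResField M)⁻¹ •
      (cj x.out (MonoidAlgebra.single (g : G) 1) * emb H (bar M S.f * c)) := by
    intro x hx
    rw [map_smul, hA0, map_mul, map_mul,
      show x.out = ((⟨x.out, (Finset.mem_filter.1 hx).2⟩ : H) : G) from rfl,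
      cj_emb _ (bar M S.f * c), isClassCoeff_iff_cj.1 ((isClassCoeff_bar _).mul hcc),
      cj_emb _ (MonoidAlgebra.single g 1)]
    congr 2
    rw [← cj_emb]
    congr 1
    refine alg_ext fun y => ?_
    rw [coeff_single_if]
    by_cases hy : y ∈ H
    · rw [coeff_emb_of_mem _ _ hy, coeff_single_if]
      simp [Subtype.ext_iff]
    · rw [coeff_emb_of_not_mem _ _ hy, if_neg]
      rintro rfl; exact hy g.2
  rw [Finset.sum_congr rfl hterm, ← Finset.smul_sum, ← Finset.sum_mul]
  have hsum : ∑ x ∈ T, cj x.out (MonoidAlgebra.single (g : G) (1 : ResField M)) =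
      (N : ResField M) • emb H (classSum (ResField M) g) := by
    refine alg_ext fun y => ?_
    rw [coeff_sum_apply, MonoidAlgebra.coeff_smul_apply]
    simp only [cj_eq_mul, MonoidAlgebra.single_mul_single, one_mul, coeff_single_if]
    rw [Finset.sum_boole]
    by_cases hy : y ∈ H
    swap
    · rw [coeff_emb_of_not_mem _ _ hy, smul_zero, Finset.card_eq_zero.2, Nat.cast_zero]
      rw [Finset.filter_eq_empty_iff]
      intro x hx h
      exact hy (h ▸ mul_mem (mul_mem (Finset.mem_filter.1 hx).2 g.2)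
        (inv_mem (Finset.mem_filter.1 hx).2))
    rw [coeff_emb_of_mem _ _ hy, coeff_classSum, smul_eq_mul]
    by_cases hgy : IsConj g ⟨y, hy⟩
    swap
    · rw [if_neg hgy, mul_zero, Finset.card_eq_zero.2, Nat.cast_zero]
      rw [Finset.filter_eq_empty_iff]
      intro x hx h
      exact hgy (isConj_iff.2 ⟨⟨x.out, (Finset.mem_filter.1 hx).2⟩, Subtype.ext h.symm⟩)
    rw [if_pos hgy, mul_one]
    congr 1
    obtain ⟨h0, hh0⟩ := isConj_iff.1 hgy
    refine Nat.eq_of_mul_eq_mul_left (Nat.card_pos (α := P)) ?_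
    rw [← hN]
    haveI := Fintype.ofFinite P
    haveI := Fintype.ofFinite Cg
    rw [Nat.card_eq_fintype_card, Nat.card_eq_fintype_card, ← Finset.card_univ, ← Finset.card_univ,
      mul_comm, ← Finset.card_product]
    refine Finset.card_bij (fun xu _ => (⟨h0⁻¹ * ⟨xu.1.out * (xu.2 : G),
      mul_mem (Finset.mem_filter.1 (Finset.mem_filter.1 (Finset.mem_product.1 ‹_›).1).1).2
        (S.le_H xu.2.2)⟩, ?_⟩ : Cg)) (fun _ _ => Finset.mem_univ _) ?_ ?_
    · rename_i hxu
      obtain ⟨hxT, hxy⟩ := Finset.mem_filter.1 (Finset.mem_product.1 hxu).1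
      have hug : Commute (⟨(xu.2 : G), S.le_H xu.2.2⟩ : H) g :=
        Subgroup.mem_centralizer_iff.1 hgD _ (Subgroup.mem_subgroupOf.2 xu.2.2)
      refine conj_eq_self_iff.1 ?_
      have h1 : (⟨xu.1.out * (xu.2 : G), mul_mem (Finset.mem_filter.1 hxT).2 (S.le_H xu.2.2)⟩ : H) *
          g * (⟨xu.1.out * (xu.2 : G), mul_mem (Finset.mem_filter.1 hxT).2 (S.le_H xu.2.2)⟩ : H)⁻¹ =
            ⟨y, hy⟩ := by
        rw [show (⟨xu.1.out * (xu.2 : G), mul_mem (Finset.mem_filter.1 hxT).2 (S.le_H xu.2.2)⟩ : H) =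
          ⟨xu.1.out, (Finset.mem_filter.1 hxT).2⟩ * ⟨(xu.2 : G), S.le_H xu.2.2⟩ from rfl,
          mul_inv_rev, mul_assoc _ (⟨(xu.2 : G), _⟩ : H) g, hug.eq]
        exact Subtype.ext (by simp [mul_assoc, hxy])
      generalize hX : (⟨xu.1.out * (xu.2 : G), _⟩ : H) = X at h1 ⊢
      calc _ = h0⁻¹ * (X * g * X⁻¹) * h0 := by group
        _ = g := by rw [h1, ← hh0]; group
    · rintro ⟨x, u⟩ hxu ⟨x', u'⟩ hxu' h
      have h1 : x.out * (u : G) = x'.out * (u' : G) :=
        congrArg Subtype.val (mul_left_cancel (congrArg Subtype.val h))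
      have hx : x = x' := by
        have := congrArg (fun g : G => (g : G ⧸ P)) h1
        simpa [QuotientGroup.mk_mul_of_mem _ u.2, QuotientGroup.mk_mul_of_mem _ u'.2] using this
      subst hx
      exact Prod.ext rfl (Subtype.ext (mul_left_cancel h1))
    · intro w _
      set h : H := h0 * (w : H) with hh
      have hhy : h * g * h⁻¹ = ⟨y, hy⟩ := by
        rw [hh, mul_inv_rev, mul_assoc h0, show (w : H) * g = g * w from
          Subgroup.mem_centralizer_singleton_iff.1 w.2, ← hh0]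
        group
      obtain ⟨u, hu⟩ := QuotientGroup.mk_out_eq_mul P (h : G)
      have hxT : ((h : G) : G ⧸ P).out ∈ H := by rw [hu]; exact mul_mem h.2 (S.le_H u.2)
      refine ⟨(((h : G) : G ⧸ P), u⁻¹), Finset.mem_product.2 ⟨Finset.mem_filter.2
        ⟨Finset.mem_filter.2 ⟨Finset.mem_univ _, hxT⟩, ?_⟩, Finset.mem_univ _⟩, ?_⟩
      · have hug : Commute (⟨(u : G), S.le_H u.2⟩ : H) g :=
          Subgroup.mem_centralizer_iff.1 hgD _ (Subgroup.mem_subgroupOf.2 u.2)
        have hug' : (u : G) * g * (u : G)⁻¹ = g := by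
          rw [show (u : G) * g = g * u from congrArg Subtype.val hug.eq, mul_inv_cancel_right]
        rw [hu, mul_inv_rev, show y = (h : G) * g * (h : G)⁻¹ from (congrArg Subtype.val hhy).symm]
        conv_lhs => rw [← hug']
        group
      · refine Subtype.ext (show h0⁻¹ * _ = (w : H) from ?_)
        rw [inv_mul_eq_iff_eq_mul, ← hh]
        refine Subtype.ext ?_
        show ((h : G) : G ⧸ P).out * ((u⁻¹ : P) : G) = _
        rw [hu]; simp
  rw [hsum, smul_mul_assoc, inv_smul_smul₀ hNp, ← map_mul, ← mul_assoc,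
    ((isClassCoeff_classSum g).commute (bar M S.f)).eq, ← hzc, hinv]
  rfl

/-- The local data for the functor. -/
theorem exists_loc : ∃ L : Loc M G, L.m = S.m ∧ L.Bb = bar M B := by
  classical
  haveI : Fact p.Prime := ⟨S.hM.1⟩
  haveI := resField_charP (M := M) S.hM
  haveI := DefectOne.resField_isAlgClosed (M := M) S.hM
  set H := Subgroup.centralizer (S.Z : Set G) with hH
  set Md := S.model with hMd
  obtain ⟨A, hA, hAP, hAs⟩ := S.exists_trace
  set E : KG M H →+* MonoidAlgebra (ResField M) G := emb H with hE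
  have hnH : S.n ∈ Subgroup.normalizer (H : Set G) := mem_normalizer_centralizer S.n_normalizer
  have hfix : ∀ x : KG M H, IsClassCoeff x → ∀ h ∈ H, cj h (E x) = E x := fun x hx h hh => by
    rw [show h = ((⟨h, hh⟩ : H) : G) from rfl, hE, cj_emb, isClassCoeff_iff_cj.1 hx]
  have hmove : ∀ {g : G}, g ∈ Subgroup.normalizer (H : Set G) → ∀ {x}, x ∈ inH M H →
      cj g x ∈ inH M H := by
    intro g hg x hx
    refine inH_induction hx (fun h hh => ?_) (fun a b ha hb => by rw [map_add]; exact add_mem ha hb)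
      fun c a ha => by rw [map_smul]; exact smul_mem_inH c ha
    rw [cj_eq_mul, MonoidAlgebra.single_mul_single, MonoidAlgebra.single_mul_single, one_mul, one_mul]
    exact single_mem_inH ((Subgroup.mem_normalizer_iff.1 hg h).1 hh) 1
  have hnfix : cj S.n (pbar M S.Z S.f) = pbar M S.Z S.f := S.n_fix.2
  have hEinj : Function.Injective E := emb_injective H
  have hEsmul : ∀ (c : ResField M) (x : KG M H), E (c • x) = c • E x := fun c x =>
    alg_ext fun y => by
      by_cases hy : y ∈ H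
      · rw [hE, coeff_emb_of_mem _ _ hy, MonoidAlgebra.coeff_smul_apply,
          MonoidAlgebra.coeff_smul_apply, coeff_emb_of_mem _ _ hy]
      · rw [hE, coeff_emb_of_not_mem _ _ hy, MonoidAlgebra.coeff_smul_apply,
          coeff_emb_of_not_mem _ _ hy, smul_zero]
  have hDfix := hfix Md.D Md.central
  -- conjugates of `D`
  have hDconj : ∀ g : G, g ∈ Subgroup.normalizer (H : Set G) →
      cj g (pbar M S.Z S.f) = pbar M S.Z S.f → ∃ w ∈ inH M H, cj g (E Md.D) = E Md.D * w := by
    intro g hg hgf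
    obtain ⟨c, hc⟩ := hmove hg ⟨Md.D, rfl⟩
    have hcc : IsClassCoeff c := isClassCoeff_iff_cj.2 fun h => hEinj (by
      rw [hE, ← cj_emb, hc, cj_cj,
        show (h : G) * g = g * (g⁻¹ * h * g) by group, ← cj_cj]
      congr 1
      exact hDfix _ ((Subgroup.mem_normalizer_iff''.1 hg h).1 h.2))
    have hbc : bar M S.f * c = c := hEinj (by
      rw [map_mul, hc, show E (bar M S.f) = pbar M S.Z S.f from rfl, ← hgf, ← map_mul (cj g),
        show pbar M S.Z S.f = E (bar M S.f) from rfl, ← map_mul, Md.bar_mul])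
    have hcn : c ^ p ^ S.a = 0 := hEinj (by
      rw [map_pow, hc, ← map_pow, ← map_pow, Md.pow_eq_zero, map_zero, map_zero])
    obtain ⟨w, hw⟩ := Md.central_nilpotent hcc hbc hcn
    exact ⟨E w, ⟨w, rfl⟩, by rw [← map_mul, ← hw, hc]⟩
  -- the intertwiner
  obtain ⟨i1, hi1⟩ := hmove hnH ⟨Md.i0, rfl⟩
  have hi1i : IsIdempotentElem i1 := hEinj (by
    rw [map_mul, hi1, ← map_mul, ← map_mul, Md.idem.eq])
  have hbi : bar M S.f * i1 = i1 := hEinj (by
    rw [map_mul, hi1, show E (bar M S.f) = pbar M S.Z S.f from rfl, ← hnfix, ← map_mul,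
      show pbar M S.Z S.f = E (bar M S.f) from rfl, ← map_mul, Md.i0_mem])
  have hi1ne : i1 ≠ 0 := fun h => Md.top_ne (by
    rw [h, map_zero, eq_comm, map_eq_zero_iff _ (cj S.n).injective,
      map_eq_zero_iff _ hEinj] at hi1
    rw [hi1, mul_zero])
  have hprim : ∀ x, IsIdempotentElem x → i1 * x * i1 = x → x = 0 ∨ x = i1 := by
    intro x hx hix
    obtain ⟨x0, hx0⟩ := hmove (inv_mem hnH) ⟨x, rfl⟩
    have hi0 : cj S.n⁻¹ (E i1) = E Md.i0 := by
      rw [hi1, cj_cj, inv_mul_cancel, cj_one_apply]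
    rcases Md.primitive (e := x0) (hEinj (by rw [map_mul, hx0, ← map_mul, ← map_mul, hx.eq]))
      (hEinj (by rw [map_mul, map_mul, hx0, ← hi0, ← map_mul, ← map_mul, ← map_mul, ← map_mul, hix]))
      with h | h
    · left
      rw [h, map_zero, eq_comm, map_eq_zero_iff _ (cj S.n⁻¹).injective,
        map_eq_zero_iff _ hEinj] at hx0
      exact hx0
    · right
      rw [h, ← hi0] at hx0
      exact hEinj ((cj S.n⁻¹).injective hx0.symm)
  obtain ⟨x, y, hix, hxi, hiy, hyi, hxy, hyx⟩ := Md.exists_equiv hi1i hbi hi1ne hprim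
  set g0 : MonoidAlgebra (ResField M) G := E x * MonoidAlgebra.single S.n 1 with hg0
  set g1 : MonoidAlgebra (ResField M) G := MonoidAlgebra.single S.n⁻¹ 1 * E y with hg1
  have hI0 : E Md.i0 * g0 = g0 := by rw [hg0, ← mul_assoc, ← map_mul, hix]
  have h0I : g0 * E Md.i0 = g0 := by
    rw [hg0, mul_assoc, single_mul_eq, ← hi1, ← mul_assoc, ← map_mul, hxi]
  have h01 : g0 * g1 = E Md.i0 := by
    rw [hg0, hg1, mul_assoc, ← mul_assoc (MonoidAlgebra.single S.n 1),
      MonoidAlgebra.single_mul_single, mul_inv_cancel, one_mul, ← MonoidAlgebra.one_def, one_mul,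
      ← map_mul, hxy]
  have hpow1 : ∀ k, 0 < k → g0 ^ k * g1 ^ k = E Md.i0 ∧ g0 ^ k * E Md.i0 = g0 ^ k ∧
      E Md.i0 * g0 ^ k = g0 ^ k := by
    intro k hk
    induction k with
    | zero => omega
    | succ k ih =>
      rcases Nat.eq_zero_or_pos k with rfl | hk'
      · simp [h01, h0I, hI0]
      obtain ⟨i1', i2, i3⟩ := ih hk'
      refine ⟨?_, ?_, ?_⟩
      · rw [pow_succ, pow_succ', mul_assoc, ← mul_assoc g0, h01, ← mul_assoc, i2, i1']
      · rw [pow_succ, mul_assoc, h0I]
      · rw [pow_succ', ← mul_assoc, hI0]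
  have hmem : g0 ^ S.m ∈ inH M H := by
    have h : ∀ i : ℕ, ∃ a ∈ inH M H, g0 ^ i = a * MonoidAlgebra.single (S.n ^ i) 1 := by
      intro i
      induction i with
      | zero => exact ⟨1, one_mem _, by rw [pow_zero, pow_zero, one_mul, MonoidAlgebra.one_def]⟩
      | succ i ih =>
        obtain ⟨a, ha, hae⟩ := ih
        refine ⟨a * cj (S.n ^ i) (E x), mul_mem ha (hmove (pow_mem hnH i) ⟨x, rfl⟩), ?_⟩
        rw [pow_succ, hae, hg0, mul_assoc, ← mul_assoc _ (E x), single_mul_eq, mul_assoc,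
          MonoidAlgebra.single_mul_single, one_mul, ← pow_succ, mul_assoc]
    obtain ⟨a, ha, hae⟩ := h S.m
    exact hae ▸ mul_mem ha (single_mem_inH S.n_pow 1)
  obtain ⟨g0m, hg0m⟩ := id hmem
  obtain ⟨α, w, hw, -⟩ := Md.corner_split g0m
  obtain ⟨hm1, hm2, hm3⟩ := hpow1 S.m S.m_pos
  have hgw : g0 ^ S.m = α • E Md.i0 + E Md.D * E w := by
    rw [← hEsmul, ← map_mul, ← map_add, ← hw, map_mul, map_mul, hg0m, hm3, hm2]
  have hq := Md.q_pos
  have hα : α ≠ 0 := by
    intro h
    rw [h, zero_smul, zero_add] at hgw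
    have h0 : g0 ^ (S.m * p ^ S.a) = 0 := by
      rw [pow_mul, hgw, (commute_of_fix hDfix ⟨w, rfl⟩).mul_pow, ← map_pow, Md.pow_eq_zero,
        map_zero, zero_mul]
    have h2 := (hpow1 _ (Nat.mul_pos S.m_pos hq)).1
    rw [h0, zero_mul, eq_comm, map_eq_zero_iff _ hEinj] at h2
    exact Md.top_ne (by rw [h2, mul_zero])
  obtain ⟨c, hc⟩ := IsAlgClosed.exists_pow_nat_eq α⁻¹ S.m_pos
  obtain ⟨F0, hF0⟩ : ∃ F0, F0 = pbar M S.Z S.f := ⟨_, rfl⟩
  refine ⟨{
    H := H, P := P, N := Subgroup.normalizer (S.Z : Set G), n := S.n, m := S.m, q := p ^ S.a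
    F := pbar M S.Z S.f, D := E Md.D, I := E Md.i0, A := A, γ := c • g0, Bb := bar M B
    q_two := S.hM.1.two_le.trans (Nat.le_self_pow S.a_pos.ne' p)
    m_pos := S.m_pos
    m_ne := fun h => S.not_dvd_m ((CharP.cast_eq_zero_iff (ResField M) p S.m).1 h)
    P_le := S.le_H
    H_le := centralizer_le_normalizer_self S.Z
    n_mem := S.n_normalizer
    n_norm := hnH
    n_pow := S.n_pow
    n_min := S.n_min
    F_mem := ⟨bar M S.f, rfl⟩
    D_mem := ⟨Md.D, rfl⟩
    I_mem := ⟨Md.i0, rfl⟩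
    A_mem := hA
    F_idem := isIdempotentElem_pbar S.hf
    F_H := fun h hh => cj_pbar_of_centralizes S.Z S.f hh
    F_n := hnfix
    F_zero := ?_
    FD := by rw [show pbar M S.Z S.f = E (bar M S.f) from rfl, ← map_mul, Md.bar_mul]
    D_H := hDfix
    D_pow := by rw [← map_pow, Md.pow_eq_zero, map_zero]
    D_n := hDconj _ hnH hnfix
    D_n' := hDconj _ (inv_mem hnH) (inv_mem S.n_fix).2
    FI := by rw [show pbar M S.Z S.f = E (bar M S.f) from rfl, ← map_mul, Md.i0_mem]
    I_idem := by rw [IsIdempotentElem, ← map_mul, Md.idem.eq]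
    corner := ?_
    full := ?_
    free := ?_
    top_ne := fun h => Md.top_ne (hEinj (by rw [map_mul, map_pow, map_zero]; exact h))
    gam := ⟨c • E x, smul_mem_inH c ⟨x, rfl⟩, by rw [smul_mul_assoc, hg0]⟩
    Iγ := by rw [mul_smul_comm, hI0]
    γI := by rw [smul_mul_assoc, h0I]
    γ_pow := ⟨α⁻¹ • E w, smul_mem_inH _ ⟨w, rfl⟩, by
      rw [smul_pow, hc, hgw, smul_add, smul_smul, inv_mul_cancel₀ hα, one_smul,
        (commute_of_fix hDfix ⟨w, rfl⟩).eq, smul_mul_assoc]⟩
    A_P := hAP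
    A_sum := hAs
    outer := fun g hg u hu h => S.outer hg hu h
    moved := fun g hg u hu h => S.moved hg hu h
    B_class := isClassCoeff_bar B
    B_idem := isIdempotentElem_bar S.hmax.1.2.1
    B_br := ((isBrauerPairOf_iff S.hM).1
      ((pairOf_iff_of_le S.hM S.hP S.hmax.1.1.2 S.hle).2 S.hmax.1)).2.2.2 }, rfl, rfl⟩
  · intro g hg hgn
    obtain ⟨f', hf', he⟩ := exists_pbar_conj S.hf hg
    rw [← he]
    refine pbar_mul_pbar_of_ne S.hf hf' fun hff => ?_
    obtain ⟨i, hi, him⟩ := S.cover g ⟨hg, show cj g _ = _ by rw [← he, hff]⟩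
    exact hgn i hi him
  · rintro _ ⟨x', rfl⟩
    obtain ⟨β, hβ⟩ := Md.corner x'
    exact ⟨β, by
      rw [← map_mul, ← map_mul, hβ, map_sum]
      exact Finset.sum_congr rfl fun i _ => by rw [hEsmul, map_mul, map_pow]⟩
  · obtain ⟨r, xs, ys, h⟩ := Md.full
    exact ⟨r, fun j => E (xs j), fun j => E (ys j), fun j => ⟨⟨_, rfl⟩, ⟨_, rfl⟩⟩, by
      rw [show pbar M S.Z S.f = E (bar M S.f) from rfl, h, map_sum]; simp only [map_mul]⟩
  · rintro _ ⟨x', rfl⟩ hfx hDx
    rw [show pbar M S.Z S.f = E (bar M S.f) from rfl, ← map_mul] at hfx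
    rw [← map_mul, map_eq_zero_iff _ hEinj] at hDx
    have key : ∀ i ≤ p ^ S.a - 1, ∃ y, x' = Md.D ^ i * y ∧ bar M S.f * y = y := by
      intro i hi
      induction i with
      | zero => exact ⟨x', by rw [pow_zero, one_mul], hEinj hfx⟩
      | succ i ih =>
        obtain ⟨y, hy, hby⟩ := ih (by omega)
        obtain ⟨y', hy'⟩ := Md.free y hby (by
          have h1 : Md.D ^ (i + 1) * y = 0 := by rw [pow_succ', mul_assoc, ← hy, hDx]
          rw [show p ^ S.a - 1 = p ^ S.a - 1 - (i + 1) + (i + 1) by omega, pow_add, mul_assoc, h1,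
            mul_zero])
        refine ⟨bar M S.f * y', ?_, by rw [← mul_assoc, (isIdempotentElem_bar S.hf).eq]⟩
        rw [hy, hy', pow_succ, mul_assoc (Md.D ^ i) Md.D, ← mul_assoc Md.D (bar M S.f),
          (Md.central.commute (bar M S.f)).eq, Md.bar_mul]
    obtain ⟨y, hy, -⟩ := key _ le_rfl
    exact ⟨E y, ⟨y, rfl⟩, by rw [hy, map_mul, map_pow]⟩

/-- There are at least `m` Brauer characters in the block. -/
theorem le_blockRank : S.m ≤ blockRank p B := by
  classical
  haveI : Fact p.Prime := ⟨S.hM.1⟩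
  haveI := resField_charP (M := M) S.hM
  haveI := DefectOne.resField_isAlgClosed (M := M) S.hM
  haveI := Fintype.ofFinite G
  obtain ⟨L, hLm, hLB⟩ := S.exists_loc
  obtain ⟨d, τ, hirr, hne, hBb⟩ := L.exists_simples
  haveI := hirr
  have hnil : ∀ (i : Fin L.m) {x : G}, IsPElem p x → IsNilpotent (τ i x - 1) := by
    intro i x hx
    obtain ⟨k, hk⟩ := hx
    refine ⟨p ^ k, ?_⟩
    have h := congrArg (Polynomial.aeval (R := ResField M) (τ i x))
      (show ((Polynomial.X : Polynomial (ResField M)) - 1) ^ p ^ k = Polynomial.X ^ p ^ k - 1 by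
        rw [sub_pow_char_pow, one_pow])
    simp only [map_pow, map_sub, Polynomial.aeval_X, map_one] at h
    rw [h, ← map_pow, ← hk, pow_orderOf_eq_one, map_one, sub_self]
  have h := DefectOne.le_blockRank S.hM (DefectOne.linearIndependent_trace τ hirr hne) fun i => by
    refine DefectOne.RegFun.mem_span_block S.hM S.hmax.1.2.1
      ⟨fun y g => ?_, fun x y hxy hx hy => ?_⟩ fun y => ?_
    · show LinearMap.trace _ _ (τ i (y * g * y⁻¹)) = LinearMap.trace _ _ (τ i g)
      rw [map_mul, LinearMap.trace_mul_comm, ← map_mul]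
      congr 2
      group
    · show LinearMap.trace _ _ (τ i (x * y)) = LinearMap.trace _ _ (τ i y)
      have hc' : Commute (τ i y) (τ i x - 1) := (hxy.symm.map (τ i)).sub_right (Commute.one_right _)
      rw [← sub_eq_zero, ← map_sub, show τ i (x * y) - τ i y = τ i y * (τ i x - 1) by
        rw [mul_sub, mul_one, ← map_mul, hxy.eq]]
      exact (LinearMap.isNilpotent_trace_of_isNilpotent
        (hc'.isNilpotent_mul_left (hnil i hx))).eq_zero
    · have hasum : (τ i).asAlgebraHom (bar M B) = ∑ g, (bar M B).coeff g • τ i g := by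
        conv_lhs => rw [eq_sum_single (bar M B)]
        simp [map_sum, Representation.asAlgebraHom_single]
      show ∑ g, redC M (blockCoeff B g) * LinearMap.trace _ _ (τ i (g * y)) =
        LinearMap.trace _ _ (τ i y)
      conv_rhs => rw [← one_mul (τ i y), ← hBb i, hLB, hasum, Finset.sum_mul, map_sum]
      refine Finset.sum_congr rfl fun g _ => ?_
      rw [smul_mul_assoc, map_smul, smul_eq_mul, map_mul, coeff_bar]
  rwa [Fintype.card_fin, hLm] at h

end Setup

end Cfsg.Agent.Lib.CyclicDefect
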