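import Cfsg.Agent.Lib.CyclicDefect.Setup

/-!
# The action of the inertial quotient on the characters of the local block
-/

set_option autoImplicit false
set_option linter.unusedSectionVars false
set_option linter.style.haveILetI false
set_option maxHeartbeats 1000000

namespace Cfsg.Agent.Lib.CyclicDefect

open Cfsg Cfsg.Agent.Lib Cfsg.Agent.Lib.Block Cfsg.Agent.Lib.BrauerPairs Cfsg.Agent.Lib.Star

universe u

/-! ### Twisting a group algebra by an automorphism -/

section Twist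

variable {k : Type*} [CommRing k] {H : Type u} [Group H]

/-- The automorphism of the group algebra from an automorphism of the group. -/
noncomputable def tw (φ : H ≃* H) : MonoidAlgebra k H ≃ₐ[k] MonoidAlgebra k H :=
  MonoidAlgebra.domCongr k k φ

theorem coeff_tw (φ : H ≃* H) (X : MonoidAlgebra k H) (y : H) :
    (tw φ X).coeff y = X.coeff (φ.symm y) := by
  rw [tw, MonoidAlgebra.coeff_domCongr]

theorem tw_single (φ : H ≃* H) (h : H) (c : k) :
    tw φ (MonoidAlgebra.single h c) = MonoidAlgebra.single (φ h) c :=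
  alg_ext fun y => by
    classical
    rw [coeff_tw, coeff_single_if, coeff_single_if]
    simp [MulEquiv.eq_symm_apply, eq_comm]

theorem isClassCoeff_tw [Finite H] (φ : H ≃* H) {X : MonoidAlgebra k H} (h : IsClassCoeff X) :
    IsClassCoeff (tw φ X) := fun v x => by
  rw [coeff_tw, coeff_tw, show φ.symm (v * x * v⁻¹) = φ.symm v * φ.symm x * (φ.symm v)⁻¹ by simp]
  exact h (φ.symm v) (φ.symm x)

end Twist

section Ring

variable {k : Type*} [CommRing k] {R : Type u} [Ring R] [Algebra k R]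

theorem twist_step (D : R) (hD : ∀ v, Commute D v) (A c : k) (i : ℕ) (Y y : R) :
    (A • D ^ i + D ^ (i + 1) * Y) * (c • D + D ^ 2 * y) =
      (A * c) • D ^ (i + 1) + D ^ (i + 2) * (A • y + c • Y + D * (Y * y)) := by
  have e1 : Y * D = D * Y := (hD Y).eq.symm
  have e2 : Y * D ^ 2 = D ^ 2 * Y := ((hD Y).pow_left 2).eq.symm
  simp only [add_mul, mul_add, smul_mul_assoc, mul_smul_comm, smul_smul, mul_assoc, e1]
  rw [← mul_assoc Y (D ^ 2) y, e2]
  simp only [pow_succ, pow_zero, one_mul, mul_assoc, smul_add, smul_smul, mul_comm c A]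
  abel

theorem binom_step (b E : R) (hb : b * b = b) (hbE : b * E = E) (hEb : E * b = E) (κ : k) (Y : R) :
    (b + E) * (b + κ • E + E * E * Y) = b + (κ + 1) • E + E * E * (Y + κ • 1 + E * Y) := by
  have h1 : b * (E * (E * Y)) = E * (E * Y) := by rw [← mul_assoc b E, hbE]
  simp only [add_mul, mul_add, mul_smul_comm, smul_mul_assoc, mul_assoc, hb, hbE, hEb, h1,
    mul_one, add_smul, one_smul, smul_add]
  abel

end Ring

section Powers

variable {p : ℕ} {M : Ideal AlgInt} [M.IsPrime] {H : Type u} [Group H] [Finite H]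
  {b : Set (IrrCharacter H)} {z : H} {a : ℕ}

theorem omega_mapIrr_tw (φ : H ≃* H) (η : IrrCharacter H) (X : MonoidAlgebra ℂ H) :
    omega (mapIrr φ η : H → ℂ) (tw φ X) = omega (η : H → ℂ) X := by
  haveI := Fintype.ofFinite H
  rw [omega_eq_sum, omega_eq_sum, ← Equiv.sum_comp φ.toEquiv]
  congr 1
  · refine Finset.sum_congr rfl fun x _ => ?_
    simp only [MulEquiv.toEquiv_eq_coe, EquivLike.coe_coe, coeff_tw, MulEquiv.symm_apply_apply,
      mapIrr_apply]
  · rw [← map_one φ, mapIrr_apply, map_one]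

theorem toF_tw (φ : H ≃* H) (X : MonoidAlgebra ℂ H) : toF M (tw φ X) = tw φ (toF M X) :=
  alg_ext fun y => by simp [coeff_tw]

theorem intR_tw (φ : H ≃* H) {X : MonoidAlgebra ℂ H} (h : IntR M X) : IntR M (tw φ X) :=
  fun y => by rw [coeff_tw]; exact h _

/-- A twist fixing the block scales `D` by what it does to `z`. -/
theorem Model.exists_twist_D (Md : Model p M b z a) (hM : IsPModular p M) (φ : H ≃* H)
    (hfix : tw φ (bar M b) = bar M b) {κ : ℕ} (hz : φ z = z ^ κ) :
    ∃ y, tw φ Md.D = (κ : ResField M) • Md.D + Md.D ^ 2 * y := by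
  classical
  haveI : Fact p.Prime := ⟨hM.1⟩
  haveI := resField_charP (M := M) hM
  haveI : CharP (KG M H) p :=
    charP_of_injective_algebraMap (FaithfulSMul.algebraMap_injective (ResField M) _) p
  set bb := bar M b with hbb
  set D := Md.D with hD
  have hcD : ∀ x : KG M H, D * x = x * D := fun x => (Md.central.commute x).eq
  have hbD : bb * D = D := Md.bar_mul
  have hc : IsClassCoeff (tw φ D) := isClassCoeff_tw φ Md.central
  have hbc : bb * tw φ D = tw φ D := by rw [← hfix, ← map_mul, hbD]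
  have hn : (tw φ D) ^ p ^ a = 0 := by rw [← map_pow, Md.pow_eq_zero, map_zero]
  obtain ⟨w, hw⟩ := Md.central_nilpotent hc hbc hn
  obtain ⟨α, w1, hw1, -⟩ := Md.corner_split w
  obtain ⟨n, xs, ys, hxy⟩ := Md.full
  -- the leading coefficient
  have hform : tw φ D = α • D + D ^ 2 * ∑ j, xs j * w1 * ys j := by
    calc tw φ D = ∑ j, xs j * (Md.i0 * tw φ D * Md.i0) * ys j := by
          conv_lhs => rw [← hbc, hbb, hxy, Finset.sum_mul]
          refine Finset.sum_congr rfl fun j _ => ?_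
          rw [← (hc.commute Md.i0).eq, mul_assoc (tw φ D), Md.idem.eq]
          simp only [mul_assoc]
          rw [← (hc.commute (ys j)).eq]
          simp only [← mul_assoc]
          rw [mul_assoc (xs j) Md.i0 (tw φ D), ← (hc.commute Md.i0).eq, ← mul_assoc]
      _ = ∑ j, (α • (D * (xs j * Md.i0 * ys j)) + D ^ 2 * (xs j * w1 * ys j)) := by
          refine Finset.sum_congr rfl fun j _ => ?_
          have hi : Md.i0 * tw φ D * Md.i0 = α • (D * Md.i0) + D ^ 2 * w1 := by
            rw [hw, ← mul_assoc Md.i0, ← hcD, mul_assoc D, mul_assoc D, hw1, mul_add, mul_smul_comm,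
              ← mul_assoc D, ← pow_two]
          rw [hi, mul_add, add_mul, mul_smul_comm, smul_mul_assoc, ← mul_assoc (xs j) D, ← hcD,
            ← mul_assoc (xs j) (D ^ 2), ← ((Md.central.pow 2).commute (xs j)).eq]
          simp only [mul_assoc]
          rfl
      _ = _ := by
          rw [Finset.sum_add_distrib, ← Finset.smul_sum, ← Finset.mul_sum, ← Finset.mul_sum, ← hxy,
            show D * bar M b = D from (hcD bb).trans hbD]
  refine ⟨∑ j, xs j * w1 * ys j, ?_⟩
  suffices hακ : α = (κ : ResField M) by rw [← hακ]; exact hform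
  -- compare on `z`
  set P' := p ^ (a - 1) with hP'
  have hP'pos : 0 < P' := pow_pos hM.1.pos _
  have hlt : P' < p ^ a := Nat.pow_lt_pow_right hM.1.one_lt (by have := Md.a_pos; omega)
  set y := ∑ j, xs j * w1 * ys j with hy
  set e0 := Md.i0 with he0
  set x0 := MonoidAlgebra.single z (1 : ResField M) * bb with hx0
  have hxe : x0 = bb + D ^ P' := Md.single_z
  have hzc : ∀ v : KG M H, Commute bb v := fun v => (isClassCoeff_bar b).commute v
  have hbi : IsIdempotentElem bb := by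
    rw [hbb, IsIdempotentElem, hxy, Finset.sum_mul]
    refine Finset.sum_congr rfl fun j _ => ?_
    rw [← hxy]
    simp only [mul_assoc]
    rw [← (hzc (ys j)).eq, ← mul_assoc Md.i0, ← (hzc Md.i0).eq, hbb, Md.i0_mem]
  have hpowz : MonoidAlgebra.single (z ^ κ) (1 : ResField M) * bb = x0 ^ κ * bb := by
    rw [hx0, ((hzc (MonoidAlgebra.single z 1)).symm).mul_pow, MonoidAlgebra.single_pow, one_pow,
      mul_assoc]
    congr 1
    rw [← pow_succ, hbi.pow_succ_eq]
  have hbin : ∀ k : ℕ, ∃ Y, x0 ^ k * bb = bb + (k : ResField M) • D ^ P' + D ^ (2 * P') * Y := by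
    intro k
    induction k with
    | zero => exact ⟨0, by simp⟩
    | succ k ih =>
      obtain ⟨Y, hY⟩ := ih
      refine ⟨Y + (k : ResField M) • 1 + D ^ P' * Y, ?_⟩
      have h1 : bb * D ^ P' = D ^ P' := by
        rw [show P' = P' - 1 + 1 by omega, pow_succ', ← mul_assoc, hbD]
      have h2 : ∀ v, bb * (D ^ P' * v) = D ^ P' * v := fun v => by rw [← mul_assoc bb, h1]
      have h3 : D ^ P' * bb = D ^ P' := by rw [← (hzc _).eq, h1]
      have e2 : D ^ (2 * P') = D ^ P' * D ^ P' := by rw [two_mul, pow_add]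
      rw [e2] at hY
      rw [show D ^ (2 * P') = D ^ P' * D ^ P' from e2]
      rw [pow_succ', mul_assoc, hY, hxe, Nat.cast_succ]
      exact binom_step bb _ hbi.eq h1 h3 _ Y
  obtain ⟨Y, hY⟩ := hbin κ
  have himg : bb + (tw φ D) ^ P' = bb + (κ : ResField M) • D ^ P' + D ^ (2 * P') * Y := by
    rw [← hY, ← hpowz, ← hz, ← tw_single, ← hfix, ← map_pow, ← map_add, ← map_mul, ← hxe]
  obtain ⟨Z, hZ⟩ : ∃ Z, (tw φ D) ^ P' = α ^ P' • D ^ P' + D ^ (2 * P') * Z := by
    refine ⟨y ^ P', ?_⟩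
    have hcom : Commute (α • D) (D ^ 2 * y) :=
      ((Md.central.commute _ : Commute D (D ^ 2 * y))).smul_left α
    rw [hform, hP', add_pow_expChar_pow_of_commute (p := p) (R := KG M H) _ hcom, smul_pow, ((Md.central.pow 2).commute y).mul_pow,
      ← pow_mul]
  rw [hZ, add_assoc, add_right_inj] at himg
  have htop := congrArg (fun c => D ^ (p ^ a - 1 - P') * c * e0) himg
  have hkill : ∀ W : KG M H, D ^ (p ^ a - 1 - P') * (D ^ (2 * P') * W) = 0 := fun W => by
    rw [← mul_assoc, ← pow_add, pow_eq_zero_of_le (by omega) Md.pow_eq_zero, zero_mul]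
  simp only [mul_add, mul_smul_comm, hkill, add_zero, smul_mul_assoc, ← pow_add,
    show p ^ a - 1 - P' + P' = p ^ a - 1 by omega] at htop
  have hpow : α ^ P' = (κ : ResField M) := by
    refine sub_eq_zero.1 (Md.smul_top_eq_zero ?_)
    rw [sub_smul, htop, sub_self]
  refine iterateFrobenius_inj (ResField M) p (a - 1) ?_
  rw [iterateFrobenius_def, map_natCast]
  exact hpow

end Powers

/-- Representatives of the orbits of a free action of a cyclic group away from one point. -/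
theorem exists_reps {X : Type u} [Fintype X] (π : Equiv.Perm X) {m r : ℕ} (hm : 0 < m)
    (hπ : π ^ m = 1) (x₀ : X) (h0 : π x₀ = x₀) (hcard : Fintype.card X = m * r + 1)
    (hfree : ∀ j, 0 < j → j < m → ∀ x, (π ^ j) x = x → x = x₀) :
    ∃ R : Fin r → X, (∀ t, R t ≠ x₀) ∧
      (∀ t t' j, j < m → (π ^ j) (R t) = R t' → t = t' ∧ j = 0) ∧
      ∀ x, x ≠ x₀ → ∃ t j, (π ^ j) (R t) = x := by
  classical
  have hfix : ∀ j : ℕ, (π ^ j) x₀ = x₀ := fun j => by
    induction j with
    | zero => simp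
    | succ j ih => rw [pow_succ', Equiv.Perm.mul_apply, ih, h0]
  have hne : ∀ (j : ℕ) {x}, x ≠ x₀ → (π ^ j) x ≠ x₀ := fun j x hx h =>
    hx ((π ^ j).injective (h.trans (hfix j).symm))
  have hmod : ∀ j : ℕ, π ^ j = π ^ (j % m) := fun j => pow_eq_pow_mod j hπ
  let s : Setoid {x // x ≠ x₀} :=
    { r := fun a c => ∃ j : ℕ, (π ^ j) a.1 = c.1
      iseqv := ⟨fun a => ⟨0, by simp⟩, fun {a c} ⟨j, hj⟩ => ⟨m * j - j, by
        rw [← hj, ← Equiv.Perm.mul_apply, ← pow_add,
          Nat.sub_add_cancel (Nat.le_mul_of_pos_left j hm), pow_mul, hπ, one_pow]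
        rfl⟩,
        fun {a c d} ⟨i, hi⟩ ⟨j, hj⟩ => ⟨j + i, by rw [pow_add, Equiv.Perm.mul_apply, hi, hj]⟩⟩ }
  haveI : Fintype (Quotient s) := Fintype.ofFinite _
  let F : Quotient s × Fin m → {x // x ≠ x₀} := fun q =>
    ⟨(π ^ (q.2 : ℕ)) q.1.out.1, hne _ q.1.out.2⟩
  have hF : Function.Bijective F := by
    constructor
    · rintro ⟨q, i⟩ ⟨q', i'⟩ h
      have h' : (π ^ (i : ℕ)) q.out.1 = (π ^ (i' : ℕ)) q'.out.1 := congrArg Subtype.val h
      obtain rfl : q = q' := by
        rw [← q.out_eq, ← q'.out_eq]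
        refine Quotient.sound ⟨m * (i' : ℕ) - i' + i, ?_⟩
        rw [pow_add, Equiv.Perm.mul_apply, h', ← Equiv.Perm.mul_apply, ← pow_add,
          Nat.sub_add_cancel (Nat.le_mul_of_pos_left _ hm), pow_mul, hπ, one_pow]
        rfl
      have key : ∀ {i j : Fin m}, (i : ℕ) ≤ j →
          (π ^ (i : ℕ)) q.out.1 = (π ^ (j : ℕ)) q.out.1 → i = j := by
        intro i j hij h2
        rw [← Nat.add_sub_cancel' hij, pow_add, Equiv.Perm.mul_apply] at h2
        have h3 := (π ^ (i : ℕ)).injective h2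
        by_contra hne'
        exact q.out.2 (hfree _ (by
          have : (i : ℕ) ≠ j := fun e => hne' (Fin.ext e)
          omega) (by have := j.2; omega) _ h3.symm)
      rcases le_total (i : ℕ) i' with hle | hle
      · rw [key hle h']
      · rw [key hle h'.symm]
    · intro x
      obtain ⟨j, hj⟩ := Quotient.mk_out (s := s) x
      refine ⟨(⟦x⟧, ⟨j % m, Nat.mod_lt _ hm⟩), Subtype.ext ?_⟩
      show (π ^ (j % m)) _ = x.1
      rw [← hmod, hj]
  have hcQ : Fintype.card (Quotient s) = r := by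
    have h := Fintype.card_of_bijective hF
    rw [Fintype.card_prod, Fintype.card_fin, Fintype.card_subtype_compl,
      Fintype.card_subtype_eq, hcard, Nat.add_sub_cancel, mul_comm m r] at h
    exact Nat.eq_of_mul_eq_mul_right hm h
  let E : Fin r ≃ Quotient s := (finCongr hcQ.symm).trans (Fintype.equivFin _).symm
  refine ⟨fun t => (E t).out.1, fun t => (E t).out.2, fun t t' j hj h => ?_, fun x hx => ?_⟩
  · have h' : F (E t, ⟨j, hj⟩) = F (E t', ⟨0, hm⟩) := Subtype.ext (by simpa [F] using h)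
    obtain ⟨h1, h2⟩ := Prod.ext_iff.1 (hF.1 h')
    exact ⟨E.injective h1, congrArg Fin.val h2⟩
  · obtain ⟨⟨q, i⟩, hqi⟩ := hF.2 ⟨x, hx⟩
    exact ⟨E.symm q, i, by simpa [F] using congrArg Subtype.val hqi⟩

namespace Setup

variable {p : ℕ} {M : Ideal AlgInt} [M.IsPrime] {G : Type u} [Group G] [Finite G]
  {B : Set (IrrCharacter G)} {P : Subgroup G} {e : CBlock P} (S : Setup p M B P e)

/-- The centraliser of the subgroup of order `p`. -/
abbrev CZ : Subgroup G := Subgroup.centralizer (S.Z : Set G)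

theorem pow_normCZ (i : ℕ) : S.n ^ i ∈ Subgroup.normalizer (S.CZ : Set G) :=
  pow_mem (mem_normalizer_centralizer S.n_normalizer) i

/-- Conjugation by a power of `n`. -/
noncomputable abbrev nconj (i : ℕ) : S.CZ ≃* S.CZ := normEquiv (S.pow_normCZ i)

theorem nconj_symm_coe (i : ℕ) (c : S.CZ) :
    (((S.nconj i).symm c : S.CZ) : G) = (S.n ^ i)⁻¹ * c * S.n ^ i := rfl

theorem pow_fix (i : ℕ) : S.n ^ i ∈ stab M S.Z S.f := pow_mem S.n_fix i

theorem mapBlock_nconj (i : ℕ) : mapBlock (S.nconj i) S.f = S.f := by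
  have hcoe : cj (S.n ^ i) (pbar M S.Z S.f) = pbar M S.Z (mapBlock (S.nconj i) S.f) := by
    refine alg_ext fun y => ?_
    rw [coeff_cj]
    by_cases hy : y ∈ S.CZ
    · rw [pbar, pbar, coeff_emb_of_mem _ _ hy,
        coeff_emb_of_mem _ _ ((Subgroup.mem_normalizer_iff''.1 (S.pow_normCZ i) y).1 hy),
        ← coeff_bar_mapBlock (S.nconj i) S.f]
      congr 1
      exact Subtype.ext (by rw [coe_normEquiv]; group)
    · rw [pbar, pbar, coeff_emb_of_not_mem _ _ hy,
        coeff_emb_of_not_mem _ _ (fun h => hy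
          ((Subgroup.mem_normalizer_iff''.1 (S.pow_normCZ i) y).2 h))]
  exact pbar_inj (isPBlock_mapBlock _ S.hf) S.hf (hcoe.symm.trans (S.pow_fix i).2)

theorem mapIrr_mem (i : ℕ) {η : IrrCharacter S.CZ} (hη : η ∈ S.f) :
    mapIrr (S.nconj i) η ∈ S.f := by
  rw [← S.mapBlock_nconj i]
  exact ⟨η, hη, rfl⟩

theorem tw_bar (i : ℕ) : tw (S.nconj i) (bar M S.f) = bar M S.f := alg_ext fun y => by
  rw [coeff_tw]
  conv_rhs => rw [← S.mapBlock_nconj i, ← (S.nconj i).apply_symm_apply y, coeff_bar_mapBlock]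

theorem mapIrr_mapIrr (i j : ℕ) (η : IrrCharacter S.CZ) :
    mapIrr (S.nconj i) (mapIrr (S.nconj j) η) = mapIrr (S.nconj (i + j)) η :=
  Subtype.ext (funext fun c => congrArg (η : S.CZ → ℂ) (Subtype.ext (by
    rw [nconj_symm_coe, nconj_symm_coe, nconj_symm_coe, pow_add, mul_inv_rev]
    group)))

theorem mapIrr_zero (η : IrrCharacter S.CZ) : mapIrr (S.nconj 0) η = η :=
  Subtype.ext (funext fun c => congrArg (η : S.CZ → ℂ) (Subtype.ext (by
    rw [nconj_symm_coe]; simp)))

theorem mapIrr_m (η : IrrCharacter S.CZ) : mapIrr (S.nconj S.m) η = η :=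
  Subtype.ext (funext fun c => by
    have h := Char.isClassFunction_of_isIrr η.2 c ⟨(S.n ^ S.m)⁻¹, inv_mem S.n_pow⟩
    refine Eq.trans (congrArg (η : S.CZ → ℂ) (Subtype.ext ?_)) h
    rw [nconj_symm_coe]
    simp)

/-- The permutation of the block induced by `n`. -/
noncomputable def perm : Equiv.Perm S.f where
  toFun η := ⟨mapIrr (S.nconj 1) η.1, S.mapIrr_mem 1 η.2⟩
  invFun η := ⟨mapIrr (S.nconj (S.m - 1)) η.1, S.mapIrr_mem _ η.2⟩
  left_inv η := Subtype.ext (by
    show mapIrr (S.nconj (S.m - 1)) (mapIrr (S.nconj 1) η.1) = η.1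
    rw [S.mapIrr_mapIrr, Nat.sub_add_cancel S.m_pos, S.mapIrr_m])
  right_inv η := Subtype.ext (by
    show mapIrr (S.nconj 1) (mapIrr (S.nconj (S.m - 1)) η.1) = η.1
    rw [S.mapIrr_mapIrr, Nat.add_sub_cancel' S.m_pos, S.mapIrr_m])

theorem perm_pow (i : ℕ) (η : S.f) : ((S.perm ^ i) η : IrrCharacter S.CZ) =
    mapIrr (S.nconj i) η.1 := by
  induction i with
  | zero => rw [pow_zero, Equiv.Perm.one_apply, S.mapIrr_zero]
  | succ i ih =>
    rw [pow_succ', Equiv.Perm.mul_apply]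
    show mapIrr (S.nconj 1) _ = _
    rw [ih, S.mapIrr_mapIrr, add_comm]

theorem perm_m : S.perm ^ S.m = 1 := Equiv.ext fun η => Subtype.ext (by
  rw [S.perm_pow, S.mapIrr_m, Equiv.Perm.one_apply])

theorem exists_kappa : ∃ κ : ℕ, (∀ i : ℕ, S.nconj i S.zH = S.zH ^ κ ^ i) ∧
    IsPrimitiveRoot (κ : ResField M) S.m := by
  classical
  haveI : Fact p.Prime := ⟨S.hM.1⟩
  haveI := resField_charP (M := M) S.hM
  have hzo : orderOf (S.zH : G) = p := by rw [Subgroup.orderOf_coe, S.zH_ord]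
  have hZ : Subgroup.zpowers (S.zH : G) = S.Z :=
    Subgroup.eq_of_le_of_card_ge (Subgroup.zpowers_le.2 S.zH_mem) (by
      rw [Nat.card_zpowers, Nat.card_zpowers, S.z_ord, hzo])
  have hmem : S.n * (S.zH : G) * S.n⁻¹ ∈ S.Z :=
    (Subgroup.mem_normalizer_iff.1 S.n_normalizer _).1 S.zH_mem
  rw [← hZ] at hmem
  obtain ⟨κ, hκ⟩ := (isOfFinOrder_of_finite (S.zH : G)).mem_powers_iff_mem_zpowers.2 hmem
  simp only at hκ
  have hpow : ∀ i : ℕ, S.n ^ i * (S.zH : G) * (S.n ^ i)⁻¹ = (S.zH : G) ^ κ ^ i := by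
    intro i
    induction i with
    | zero => simp
    | succ i ih =>
      rw [pow_succ', mul_inv_rev, pow_succ κ i, pow_mul]
      calc S.n * S.n ^ i * (S.zH : G) * ((S.n ^ i)⁻¹ * S.n⁻¹)
          = S.n * (S.n ^ i * (S.zH : G) * (S.n ^ i)⁻¹) * S.n⁻¹ := by group
        _ = (S.n * (S.zH : G) * S.n⁻¹) ^ κ ^ i := by rw [ih, conj_pow]
        _ = _ := by rw [← hκ, ← pow_mul, ← pow_mul, mul_comm]
  refine ⟨κ, fun i => Subtype.ext (by rw [coe_normEquiv, hpow i, Subgroup.coe_pow]), ?_⟩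
  have hiff : ∀ i : ℕ, (κ : ResField M) ^ i = 1 ↔ S.n ^ i ∈ S.CZ := by
    intro i
    rw [← Nat.cast_pow, ← Nat.cast_one, CharP.natCast_eq_natCast (ResField M) p,
      show κ ^ i ≡ 1 [MOD p] ↔ (S.zH : G) ^ κ ^ i = (S.zH : G) ^ 1 by
        rw [pow_eq_pow_iff_modEq, hzo], ← hpow i, pow_one]
    constructor
    · intro h
      have hc : Commute (S.n ^ i) (S.zH : G) := mul_inv_eq_iff_eq_mul.1 h
      rw [show S.CZ = Subgroup.centralizer (S.Z : Set G) from rfl, ← hZ]
      exact mem_centralizer_zpowers.2 hc.symm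
    · intro h
      rw [mul_inv_eq_iff_eq_mul]
      exact (Subgroup.mem_centralizer_iff.1 h _ S.zH_mem).symm
  refine ⟨(hiff S.m).2 S.n_pow, fun l hl => ?_⟩
  have h1 : (κ : ResField M) ^ (l % S.m) = 1 := by
    rwa [← pow_eq_pow_mod l ((hiff S.m).2 S.n_pow)]
  exact Nat.dvd_of_mod_eq_zero (S.n_min _ (Nat.mod_lt _ S.m_pos) ((hiff _).1 h1))

theorem m_dvd_q : S.m ∣ p ^ S.a - 1 :=
  S.m_dvd.trans (by simpa using Nat.sub_dvd_pow_sub_pow p 1 S.a)

/-- The number of nontrivial orbits. -/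
def r : ℕ := (p ^ S.a - 1) / S.m

theorem m_mul_r : S.m * S.r = p ^ S.a - 1 := Nat.mul_div_cancel' S.m_dvd_q

theorem r_pos : 0 < S.r := by
  have h := S.m_mul_r
  have h2 : 1 < p ^ S.a := Nat.one_lt_pow S.a_pos.ne' S.hM.1.one_lt
  rcases Nat.eq_zero_or_pos S.r with h0 | h0
  · rw [h0, mul_zero] at h; omega
  · exact h0

theorem m_mul_r_add : S.m * S.r + 1 = p ^ S.a := by
  have := S.m_mul_r
  have := S.model.q_pos
  omega

/-- A fixed character and representatives of the free orbits. -/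
theorem exists_base : ∃ (η₀ : S.f) (R : Fin S.r → S.f),
    S.perm η₀ = η₀ ∧ (∀ t, R t ≠ η₀) ∧
      (∀ t t' j, j < S.m → (S.perm ^ j) (R t) = R t' → t = t' ∧ j = 0) ∧
      ∀ η, η ≠ η₀ → ∃ t j, (S.perm ^ j) (R t) = η := by
  classical
  haveI : Fact p.Prime := ⟨S.hM.1⟩
  haveI := resField_charP (M := M) S.hM
  haveI := Fintype.ofFinite S.CZ
  haveI := Fintype.ofFinite S.f
  set Md := S.model with hMd
  have hcard : Fintype.card S.f = S.m * S.r + 1 := by
    rw [← Nat.card_eq_fintype_card, Md.card_b, S.m_mul_r_add]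
  suffices h : ∃ η₀, S.perm η₀ = η₀ ∧ ∀ j, 0 < j → j < S.m → ∀ η, (S.perm ^ j) η = η → η = η₀ by
    obtain ⟨η₀, h0, hfree⟩ := h
    obtain ⟨R, hR⟩ := exists_reps S.perm S.m_pos S.perm_m η₀ h0 hcard hfree
    exact ⟨η₀, R, h0, hR⟩
  rcases (Nat.one_le_iff_ne_zero.2 S.m_pos.ne').eq_or_lt with hm1 | hm2
  · obtain ⟨η, hη⟩ := isPBlock_nonempty S.hf
    refine ⟨⟨η, hη⟩, ?_, fun j hj hjm => by omega⟩
    have := S.perm_m
    rw [← hm1, pow_one] at this
    rw [this, Equiv.Perm.one_apply]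
  obtain ⟨κ, hκ, hκprim⟩ := S.exists_kappa
  -- a root of unity over `κ`
  obtain ⟨ζ, hζ, hζR, hζκ⟩ : ∃ ζ : ℂ, IsPrimitiveRoot ζ S.m ∧ ζ ∈ locRing M ∧
      redC M ζ = (κ : ResField M) := by
    have hζ0 := Complex.isPrimitiveRoot_exp S.m S.m_pos.ne'
    obtain ⟨hR, hprim⟩ := isPrimitiveRoot_redC (M := M) S.hM S.not_dvd_m hζ0
    haveI : NeZero S.m := ⟨S.m_pos.ne'⟩
    obtain ⟨k, -, hk⟩ := hprim.eq_pow_of_pow_eq_one hκprim.pow_eq_one
    refine ⟨_, hζ0.pow_of_coprime k ((hprim.pow_iff_coprime S.m_pos k).1 (hk ▸ hκprim)),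
      pow_mem hR k, by rw [redC_pow hR, hk]⟩
  set bb := bar M S.f with hbb
  have hDj : ∀ j : ℕ, ∃ y, tw (S.nconj j) Md.D =
      ((κ ^ j : ℕ) : ResField M) • Md.D + Md.D ^ 2 * y := fun j =>
    Md.exists_twist_D S.hM _ (S.tw_bar j) (hκ j)
  choose y hy using hDj
  -- the eigenvectors
  have hmC : (S.m : ℂ) ≠ 0 := Nat.cast_ne_zero.2 S.m_pos.ne'
  have hmR : (S.m : ℂ)⁻¹ ∈ locRing M ∧ redC M ((S.m : ℂ)⁻¹) = (S.m : ResField M)⁻¹ := by
    have h := natDiv_aux (M := M) S.hM one_ne_zero S.m_pos.ne'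
      (by rw [Nat.factorization_eq_zero_of_not_dvd S.not_dvd_m, Nat.factorization_one]; rfl)
    have hne : redC M (S.m : ℂ) ≠ 0 := by
      rw [redC_natCast]
      exact fun h => S.not_dvd_m ((CharP.cast_eq_zero_iff (ResField M) p S.m).1 h)
    refine ⟨by simpa using h.1, ?_⟩
    rw [redC_inv (natCast_mem _ _) hne, redC_natCast]
  have hmk : (S.m : ResField M) ≠ 0 :=
    fun h => S.not_dvd_m ((CharP.cast_eq_zero_iff (ResField M) p S.m).1 h)
  let ex : Fin S.r → ℕ := fun t => 1 + S.m * t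
  let X : Fin S.r → MonoidAlgebra ℂ S.CZ := fun t => (S.m : ℂ)⁻¹ •
    ∑ j ∈ Finset.range S.m, (ζ⁻¹) ^ j • tw (S.nconj j) (Md.DC ^ ex t)
  have hζinv : ζ⁻¹ ∈ locRing M := by
    rw [show ζ⁻¹ = ζ ^ (S.m - 1) from inv_eq_of_mul_eq_one_left (by
      rw [← pow_succ, Nat.sub_add_cancel S.m_pos, hζ.pow_eq_one])]
    exact pow_mem hζR _
  have hDCpow : ∀ i : ℕ, IntR M (Md.DC ^ i) ∧ toF M (Md.DC ^ i) = Md.D ^ i := by
    intro i
    induction i with
    | zero =>
      refine ⟨fun x => ?_, alg_ext fun x => ?_⟩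
      · rw [pow_zero, coeff_one]; split_ifs <;> simp [one_mem, zero_mem]
      · rw [pow_zero, pow_zero, coeff_toF, coeff_one, coeff_one]
        split_ifs <;> simp [redC_one, redC_zero]
    | succ i ih =>
      refine ⟨by rw [pow_succ]; exact IntR.mul ih.1 Md.lift_int, ?_⟩
      rw [pow_succ, toF_mul ih.1 Md.lift_int, ih.2, Md.lift_eq, pow_succ]
  have hterm : ∀ (t : Fin S.r) (j : ℕ),
      IntR M ((ζ⁻¹) ^ j • tw (S.nconj j) (Md.DC ^ ex t)) := fun t j x => by
    rw [MonoidAlgebra.coeff_smul_apply, smul_eq_mul]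
    exact mul_mem (pow_mem hζinv j) (intR_tw _ (hDCpow _).1 x)
  have hsumR : ∀ (t : Fin S.r),
      IntR M (∑ j ∈ Finset.range S.m, (ζ⁻¹) ^ j • tw (S.nconj j) (Md.DC ^ ex t)) := fun t x => by
    rw [coeff_sum_apply]
    exact sum_mem fun j _ => hterm t j x
  have hXR : ∀ t, IntR M (X t) := fun t x => by
    simp only [X, MonoidAlgebra.coeff_smul_apply, smul_eq_mul]
    exact mul_mem hmR.1 (hsumR t x)
  have hXc : ∀ t, IsClassCoeff (X t) := fun t => (isClassCoeff_sum _ fun j _ =>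
    (isClassCoeff_tw _ (Md.lift_central.pow _)).smul _).smul _
  have hlead : ∀ (j i : ℕ), ∃ Y, tw (S.nconj j) (Md.D ^ i) =
      ((κ : ResField M) ^ j) ^ i • Md.D ^ i + Md.D ^ (i + 1) * Y := by
    intro j i
    induction i with
    | zero => exact ⟨0, by simp⟩
    | succ i ih =>
      obtain ⟨Y, hY⟩ := ih
      refine ⟨((κ : ResField M) ^ j) ^ i • y j + (κ : ResField M) ^ j • Y + Md.D * (Y * y j), ?_⟩
      rw [pow_succ, map_mul, hY, hy j, Nat.cast_pow, pow_succ ((κ : ResField M) ^ j) i,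
        twist_step Md.D (fun v => Md.central.commute v), ← pow_succ Md.D]
  choose Y hY using hlead
  have hXF : ∀ t, ∃ W, bb * toF M (X t) = bb * Md.D ^ ex t + Md.D ^ (ex t + 1) * W := by
    intro t
    refine ⟨bb * ((S.m : ResField M)⁻¹ •
      ∑ j ∈ Finset.range S.m, ((κ : ResField M)⁻¹) ^ j • Y j (ex t)), ?_⟩
    have hκne : (κ : ResField M) ≠ 0 := hκprim.ne_zero S.m_pos.ne'
    have hex : ∀ j, ((κ : ResField M)⁻¹) ^ j * ((κ : ResField M) ^ j) ^ ex t = 1 := fun j => by
      rw [← pow_mul, mul_comm j, pow_mul, ← mul_pow]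
      simp only [ex, pow_add, pow_one, pow_mul, hκprim.pow_eq_one, one_pow, mul_one]
      rw [inv_mul_cancel₀ hκne, one_pow]
    have hred : toF M (X t) = (S.m : ResField M)⁻¹ •
        ∑ j ∈ Finset.range S.m, ((κ : ResField M)⁻¹) ^ j • tw (S.nconj j) (Md.D ^ ex t) := by
      simp only [X]
      rw [toF_smul hmR.1 (hsumR t), hmR.2, toF_sum _ fun j _ => hterm t j]
      congr 1
      refine Finset.sum_congr rfl fun j _ => ?_
      rw [toF_smul (pow_mem hζinv j) (intR_tw _ (hDCpow _).1), redC_pow hζinv,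
        redC_inv hζR (by rw [hζκ]; exact hκne), hζκ, toF_tw, (hDCpow _).2]
    rw [hred]
    simp only [hY, smul_add, smul_smul, hex, one_smul, Finset.sum_add_distrib, Finset.sum_const,
      Finset.card_range, mul_add]
    rw [← Nat.cast_smul_eq_nsmul (ResField M), smul_smul, inv_mul_cancel₀ hmk, one_smul,
      ← mul_assoc (Md.D ^ (ex t + 1)) bb, ← ((isClassCoeff_bar S.f).commute _).eq, mul_assoc bb,
      mul_smul_comm (α := ResField M) _ (Md.D ^ (ex t + 1)), Finset.mul_sum (a := Md.D ^ _)]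
    simp only [mul_smul_comm]
  choose W hW using hXF
  -- independence
  have hexlt : ∀ t : Fin S.r, ex t < p ^ S.a := fun t => by
    have h1 : S.m * ((t : ℕ) + 1) ≤ S.m * S.r := Nat.mul_le_mul_left _ t.2
    have h2 := S.m_mul_r_add
    have h3 := S.m_pos
    simp only [ex]
    rw [mul_add, mul_one] at h1
    omega
  have hlin : LinearIndependent (ResField M) fun t => bb * toF M (X t) := by
    rw [Fintype.linearIndependent_iff]
    intro c hc
    by_contra hne
    push Not at hne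
    obtain ⟨t1, ht1⟩ := hne
    obtain ⟨t0, ht0, hmin⟩ := (Finset.univ.filter fun t => c t ≠ 0).exists_min_image id
      ⟨t1, Finset.mem_filter.2 ⟨Finset.mem_univ _, ht1⟩⟩
    have hq1 := hexlt t0
    have h1 := congrArg (fun v => Md.D ^ (p ^ S.a - 1 - ex t0) * v) hc
    simp only [mul_zero, Finset.mul_sum, mul_smul_comm, hW, mul_add] at h1
    rw [Finset.sum_eq_single_of_mem t0 (Finset.mem_univ _) fun t _ hne => ?_] at h1
    · rw [← mul_assoc _ (Md.D ^ (ex t0 + 1)), ← pow_add,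
        pow_eq_zero_of_le (show p ^ S.a ≤ p ^ S.a - 1 - ex t0 + (ex t0 + 1) by omega) Md.pow_eq_zero,
        zero_mul, add_zero, ← mul_assoc, ← ((isClassCoeff_bar S.f).commute _).eq, mul_assoc,
        ← pow_add, show p ^ S.a - 1 - ex t0 + ex t0 = p ^ S.a - 1 by omega] at h1
      have h2 := congrArg (fun v => v * Md.i0) h1
      simp only [smul_mul_assoc, zero_mul] at h2
      rw [((isClassCoeff_bar S.f).commute _).eq, mul_assoc (Md.D ^ _), Md.i0_mem] at h2
      exact (Finset.mem_filter.1 ht0).2 (Md.smul_top_eq_zero h2)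
    · by_cases hct : c t = 0
      · rw [hct, zero_smul]
      · have hlt : ex t0 < ex t := by
          have h3 : (t0 : ℕ) < t := lt_of_le_of_ne
            (hmin t (Finset.mem_filter.2 ⟨Finset.mem_univ _, hct⟩)) fun h => hne (Fin.ext h.symm)
          have h4 : S.m * ((t0 : ℕ) + 1) ≤ S.m * t := Nat.mul_le_mul_left _ h3
          have h5 := S.m_pos
          simp only [ex]
          rw [mul_add, mul_one] at h4
          omega
        rw [← mul_assoc _ (Md.D ^ (ex t + 1)), ← pow_add,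
          pow_eq_zero_of_le (show p ^ S.a ≤ p ^ S.a - 1 - ex t0 + (ex t + 1) by omega) Md.pow_eq_zero,
          zero_mul, add_zero, ← mul_assoc,
          ← ((isClassCoeff_bar S.f).commute _).eq, mul_assoc, ← pow_add,
          pow_eq_zero_of_le (show p ^ S.a ≤ p ^ S.a - 1 - ex t0 + ex t by omega) Md.pow_eq_zero,
          mul_zero, smul_zero]
  have heR : IntR M (eIdem S.f) := intR_eIdem S.hf
  have heF : toF M (eIdem S.f) = bb := alg_ext fun x => by
    rw [coeff_toF, hbb, coeff_bar, coeff_eIdem]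
  have hlinC : LinearIndependent ℂ fun t => eIdem S.f * X t :=
    linearIndependent_of_toF (fun t => IntR.mul heR (hXR t)) (by
      simpa only [toF_mul heR (hXR _), heF] using hlin)
  have hli : LinearIndependent ℂ fun t => fun η : S.f => omega (η.1 : S.CZ → ℂ) (X t) := by
    rw [Fintype.linearIndependent_iff]
    intro c hc
    refine Fintype.linearIndependent_iff.1 hlinC c (eq_of_omega_eq ?_ isClassCoeff_zero fun ξ => ?_)
    · exact isClassCoeff_sum _ fun t _ => ((isClassCoeff_eIdem S.f).mul (hXc t)).smul _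
    · rw [omega_sum, omega_zero]
      by_cases hξ : ξ ∈ S.f
      · have h1 := congrFun hc ⟨ξ, hξ⟩
        simp only [Finset.sum_apply, Pi.smul_apply, smul_eq_mul, Pi.zero_apply] at h1
        rw [← h1]
        refine Finset.sum_congr rfl fun t _ => ?_
        rw [omega_smul, omega_mul _ (isClassCoeff_eIdem S.f), omega_eIdem, if_pos hξ, one_mul]
      · refine Finset.sum_eq_zero fun t _ => ?_
        rw [omega_smul, omega_mul _ (isClassCoeff_eIdem S.f), omega_eIdem, if_neg hξ, zero_mul,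
          mul_zero]
  have heig : ∀ t (η : S.f), omega ((S.perm η).1 : S.CZ → ℂ) (X t) =
      ζ⁻¹ * omega (η.1 : S.CZ → ℂ) (X t) := by
    intro t η
    have hXtw : tw (S.nconj 1) (X t) = ζ • X t := by
      have hshift : ∀ j, tw (S.nconj 1) ((ζ⁻¹) ^ j • tw (S.nconj j) (Md.DC ^ ex t)) =
          ζ • ((ζ⁻¹) ^ (j + 1) • tw (S.nconj (j + 1)) (Md.DC ^ ex t)) := fun j => by
        rw [map_smul, smul_smul, pow_succ', ← mul_assoc,
          mul_inv_cancel₀ (hζ.ne_zero S.m_pos.ne'), one_mul]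
        congr 1
        refine alg_ext fun v => ?_
        rw [coeff_tw, coeff_tw, coeff_tw]
        congr 1
        refine Subtype.ext ?_
        rw [nconj_symm_coe, nconj_symm_coe, nconj_symm_coe, pow_one, pow_succ']
        group
      set T : ℕ → MonoidAlgebra ℂ S.CZ := fun j =>
        (ζ⁻¹) ^ j • tw (S.nconj j) (Md.DC ^ ex t) with hT
      have hTm : T S.m = T 0 := by
        simp only [hT, inv_pow, hζ.pow_eq_one, inv_one, pow_zero]
        congr 1
        refine alg_ext fun v => ?_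
        rw [coeff_tw, coeff_tw]
        have h := (Md.lift_central.pow (ex t)) ⟨(S.n ^ S.m)⁻¹, inv_mem S.n_pow⟩
          ((S.nconj 0).symm v)
        refine Eq.trans (congrArg _ (Subtype.ext ?_)) h
        simp [nconj_symm_coe]
      simp only [X]
      rw [map_smul, map_sum, Finset.sum_congr rfl fun j _ => hshift j, ← Finset.smul_sum,
        smul_comm]
      congr 2
      show ∑ j ∈ Finset.range S.m, T (j + 1) = ∑ j ∈ Finset.range S.m, T j
      have h1 := Finset.sum_range_succ' T S.m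
      rw [Finset.sum_range_succ, hTm] at h1
      exact add_right_cancel h1.symm
    show omega ((S.perm η).1 : S.CZ → ℂ) (X t) = ζ⁻¹ * omega (η.1 : S.CZ → ℂ) (X t)
    rw [eq_inv_mul_iff_mul_eq₀ (hζ.ne_zero S.m_pos.ne'), ← omega_smul, ← hXtw]
    exact omega_mapIrr_tw (S.nconj 1) η.1 (X t)
  obtain ⟨η₀, h0, hfree⟩ := exists_unique_fixed S.perm (n := S.r) hm2 S.perm_m hcard hζ.inv
    (fun t η => omega (η.1 : S.CZ → ℂ) (X t)) hli heig
  exact ⟨η₀, h0, hfree⟩

end Setup

end Cfsg.Agent.Lib.CyclicDefect
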