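import Cfsg.Agent.Lib.CyclicDefect.Sections
import Cfsg.Agent.Lib.Char.Coherent

/-!
# The structure of a block with cyclic defect group
-/

set_option autoImplicit false
set_option linter.unusedSectionVars false
set_option linter.style.haveILetI false
set_option maxHeartbeats 1000000

namespace Cfsg.Agent.Lib.CyclicDefect

open Cfsg Cfsg.Agent.Lib Cfsg.Agent.Lib.Block Cfsg.Agent.Lib.BrauerPairs Cfsg.Agent.Lib.Star
open scoped ComplexConjugate

universe u

variable {p : ℕ} {M : Ideal AlgInt} [M.IsPrime] {G : Type u} [Group G] [Finite G]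

/-- Virtual characters of norm `m + 1` with mutual products `m`, meeting at least `m + r`
characters, come from exceptional and non-exceptional characters. -/
theorem exists_coherent_coeff [Fintype G] {r m : ℕ} (hr : 0 < r) (F : Fin r → G → ℂ)
    (hgen : ∀ t, IsGeneralizedCharacter G (F t)) (hone : ∀ t, F t 1 = 0)
    (hgram : ∀ t t', classInner (F t) (F t') = (m : ℂ) + if t = t' then 1 else 0)
    (B : Finset (IrrCharacter G)) (hcard : m + r ≤ B.card)
    (hsupp : ∀ χ ∈ B, ∃ t, classInner (F t) (χ : G → ℂ) ≠ 0) :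
    ∃ (μ : Fin r → IrrCharacter G) (δ : IrrCharacter G → ℤ) (ε : ℤ),
      Function.Injective μ ∧ B.card = m + r ∧ (∀ t, μ t ∈ B) ∧ (ε = 1 ∨ ε = -1) ∧
      (∀ χ ∈ B, (∀ t, μ t ≠ χ) → δ χ = 1 ∨ δ χ = -1) ∧
      (∀ χ, χ ∉ B → δ χ = 0) ∧ (∀ t, δ (μ t) = 0) ∧
      ∀ t (χ : IrrCharacter G), classInner (F t) (χ : G → ℂ) =
        ((δ χ + if μ t = χ then ε else 0 : ℤ) : ℂ) := by
  classical
  choose a ha using fun t => Char.generalized_classInner_int (hgen t)
  have hcf := fun t => Char.isClassFunction_of_generalized (hgen t)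
  have hG : ∀ t t', ∑ χ : IrrCharacter G, a t χ * a t' χ = (m : ℤ) + if t = t' then 1 else 0 := by
    intro t t'
    have h := Char.classInner_eq_sum (φ := F t) (hcf t')
    rw [hgram t t'] at h
    simp only [ha, map_intCast] at h
    split_ifs at h ⊢ <;> exact_mod_cast h.symm
  have hne : ∀ χ ∈ B, ∃ t, a t χ ≠ 0 := fun χ hχ => by
    obtain ⟨t, ht⟩ := hsupp χ hχ
    exact ⟨t, fun h0 => ht (by rw [ha, h0, Int.cast_zero])⟩
  have hsq : ∀ z : ℤ, z ≠ 0 → 1 ≤ z * z := fun z hz => by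
    have := mul_self_pos.2 hz
    omega
  -- squares summing to the number of terms
  have htight : ∀ (s : Finset (IrrCharacter G)) (f : IrrCharacter G → ℤ) (N : ℕ),
      (∀ χ ∈ s, f χ ≠ 0) → (∑ χ ∈ s, f χ * f χ ≤ N) → N ≤ s.card →
      s.card = N ∧ (∀ χ ∈ s, f χ = 1 ∨ f χ = -1) ∧ ∑ χ ∈ s, f χ * f χ = N := by
    intro s f N h0 hle hN
    have h1 : (s.card : ℤ) ≤ ∑ χ ∈ s, f χ * f χ := by
      rw [Finset.card_eq_sum_ones, Nat.cast_sum]
      exact Finset.sum_le_sum fun χ hχ => by simpa using hsq _ (h0 χ hχ)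
    have hN' : (N : ℤ) ≤ s.card := by exact_mod_cast hN
    have hsum : ∑ χ ∈ s, (f χ * f χ - 1) = 0 := by
      rw [Finset.sum_sub_distrib, Finset.sum_const, nsmul_eq_mul, mul_one]
      omega
    refine ⟨by omega, fun χ hχ => ?_, by omega⟩
    have h2 := (Finset.sum_eq_zero_iff_of_nonneg fun ψ hψ => by
      have := hsq _ (h0 ψ hψ)
      omega).1 hsum χ hχ
    exact Int.eq_one_or_neg_one_of_mul_eq_one (v := f χ) (by omega)
  obtain ⟨r', rfl⟩ : ∃ r', r = r' + 1 := ⟨r - 1, by omega⟩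
  -- conclusion from exceptional coefficients
  have finish : ∀ (μ : Fin (r' + 1) → IrrCharacter G) (ε : ℤ), Function.Injective μ →
      (ε = 1 ∨ ε = -1) → (∀ t s, a t (μ s) = if t = s then ε else 0) →
      (∀ χ, (∀ t, μ t ≠ χ) → ∀ t, a t χ = a 0 χ) →
      ∃ (μ : Fin (r' + 1) → IrrCharacter G) (δ : IrrCharacter G → ℤ) (ε : ℤ),
      Function.Injective μ ∧ B.card = m + (r' + 1) ∧ (∀ t, μ t ∈ B) ∧ (ε = 1 ∨ ε = -1) ∧
      (∀ χ ∈ B, (∀ t, μ t ≠ χ) → δ χ = 1 ∨ δ χ = -1) ∧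
      (∀ χ, χ ∉ B → δ χ = 0) ∧ (∀ t, δ (μ t) = 0) ∧
      ∀ t (χ : IrrCharacter G), classInner (F t) (χ : G → ℂ) =
        ((δ χ + if μ t = χ then ε else 0 : ℤ) : ℂ) := by
    intro μ ε hμ hε hμa hrest
    set I := Finset.univ.image μ with hI
    have hIc : I.card = r' + 1 := by
      rw [hI, Finset.card_image_of_injective _ hμ, Finset.card_univ, Fintype.card_fin]
    have hsum0 : ∑ χ ∈ Iᶜ, a 0 χ * a 0 χ = (m : ℤ) := by
      have h := hG 0 0
      rw [← Finset.sum_add_sum_compl I, hI, Finset.sum_image (fun _ _ _ _ e => hμ e)] at h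
      simp only [hμa, ite_mul, zero_mul, Finset.sum_ite_eq, Finset.mem_univ, if_true] at h
      rw [← hI] at h
      rcases hε with rfl | rfl <;> norm_num at h <;> linarith
    have hsub : B \ I ⊆ Iᶜ := fun χ hχ => Finset.mem_compl.2 (Finset.mem_sdiff.1 hχ).2
    have hnz : ∀ χ ∈ B \ I, a 0 χ ≠ 0 := fun χ hχ h0 => by
      obtain ⟨hχB, hχI⟩ := Finset.mem_sdiff.1 hχ
      obtain ⟨t, ht⟩ := hne χ hχB
      refine ht ?_
      rw [hrest χ (fun t e => hχI (Finset.mem_image.2 ⟨t, Finset.mem_univ _, e⟩)) t, h0]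
    have hle : ∑ χ ∈ B \ I, a 0 χ * a 0 χ ≤ (m : ℤ) := hsum0 ▸
      Finset.sum_le_sum_of_subset_of_nonneg hsub fun χ _ _ => mul_self_nonneg _
    have hmin : m ≤ (B \ I).card := by
      have := Finset.le_card_sdiff I B
      omega
    obtain ⟨hc, hsign, hval⟩ := htight (B \ I) (a 0) m hnz hle hmin
    have hIB : I ⊆ B := by
      have h1 := Finset.card_sdiff_add_card_inter B I
      have h2 : I.card ≤ (B ∩ I).card := by omega
      have h3 := Finset.eq_of_subset_of_card_le Finset.inter_subset_right h2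
      rw [← h3]
      exact Finset.inter_subset_left
    have hBc : B.card = m + (r' + 1) := by
      have := Finset.card_sdiff_add_card_eq_card hIB
      omega
    have hout : ∀ χ, χ ∉ B → a 0 χ = 0 := by
      intro χ hχ
      have h1 : ∑ ψ ∈ Iᶜ \ (B \ I), a 0 ψ * a 0 ψ = 0 := by
        have := Finset.sum_sdiff (f := fun ψ => a 0 ψ * a 0 ψ) hsub
        linarith
      exact mul_self_eq_zero.1 ((Finset.sum_eq_zero_iff_of_nonneg fun ψ _ => mul_self_nonneg _).1
        h1 χ (Finset.mem_sdiff.2 ⟨Finset.mem_compl.2 fun h => hχ (hIB h),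
          fun h => hχ (Finset.mem_sdiff.1 h).1⟩))
    refine ⟨μ, fun χ => if χ ∈ I then 0 else a 0 χ, ε, hμ, hBc,
      fun t => hIB (Finset.mem_image.2 ⟨t, Finset.mem_univ _, rfl⟩), hε, fun χ hχ hne' => ?_,
      fun χ hχ => ?_, fun t => if_pos (Finset.mem_image.2 ⟨t, Finset.mem_univ _, rfl⟩),
      fun t χ => ?_⟩
    · have hI' : χ ∉ I := fun h => by
        obtain ⟨t, -, e⟩ := Finset.mem_image.1 h
        exact hne' t e
      show (if χ ∈ I then 0 else a 0 χ) = 1 ∨ _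
      rw [if_neg hI']
      simpa [hI'] using hsign χ (Finset.mem_sdiff.2 ⟨hχ, hI'⟩)
    · show (if χ ∈ I then 0 else a 0 χ) = 0
      rw [if_neg (fun h => hχ (hIB h)), hout χ hχ]
    · simp only
      rw [ha]
      congr 1
      by_cases hχI : χ ∈ I
      · obtain ⟨s, -, rfl⟩ := Finset.mem_image.1 hχI
        rw [hμa, if_pos hχI, zero_add]
        exact if_congr hμ.eq_iff.symm rfl rfl
      · have hne' : ∀ s, μ s ≠ χ := fun s e => hχI (Finset.mem_image.2 ⟨s, Finset.mem_univ _, e⟩)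
        rw [if_neg hχI, if_neg (hne' t), add_zero, hrest χ hne' t]
  rcases Nat.eq_zero_or_pos r' with hr1 | hr2
  · subst hr1
    have hBne : B.Nonempty := Finset.card_pos.1 (by omega)
    obtain ⟨ψ, hψ⟩ := hBne
    have h00 : ∀ t : Fin (0 + 1), t = 0 := fun t => Fin.ext (by omega)
    have hle : ∑ χ ∈ B, a 0 χ * a 0 χ ≤ ((m + 1 : ℕ) : ℤ) := by
      refine (Finset.sum_le_sum_of_subset_of_nonneg (Finset.subset_univ B)
        fun χ _ _ => mul_self_nonneg _).trans ?_
      rw [hG 0 0, if_pos rfl]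
      push_cast
      rfl
    obtain ⟨-, hsign, -⟩ := htight B (a 0) (m + 1) (fun χ hχ => by
      obtain ⟨t, ht⟩ := hne χ hχ
      rwa [h00 t] at ht) hle (by omega)
    refine finish (fun _ => ψ) (a 0 ψ) (fun x y _ => (h00 x).trans (h00 y).symm) (hsign ψ hψ)
      (fun t s => ?_) fun χ _ t => by rw [h00 t]
    rw [h00 t, h00 s, if_pos rfl]
  -- the coherent family
  let τ : Fin (r' + 1) → G → ℂ := fun t => F t - F 0
  obtain ⟨εC, hεC, μ, hμ, hτ⟩ := Char.exists_coherent_family 0 τ (sub_self _)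
    (fun t => Dade.generalized_sub (hgen t) (hgen 0)) (fun t => by simp [τ, hone]) fun i j hi hj => by
      constructor <;> intro hij <;>
        simp only [τ, Char.classInner_sub_left, Char.classInner_sub_right, hgram, if_neg hi,
          if_neg (Ne.symm hj), if_true]
      · subst hij; rw [if_pos rfl]; norm_num
      · rw [if_neg hij]; norm_num
  obtain ⟨ε, hε, rfl⟩ : ∃ ε : ℤ, (ε = 1 ∨ ε = -1) ∧ εC = (ε : ℂ) := by
    rcases hεC with h | h
    · exact ⟨1, Or.inl rfl, by simp [h]⟩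
    · exact ⟨-1, Or.inr rfl, by simp [h]⟩
  have hdiff : ∀ t χ, a t χ = a 0 χ +
      ε * ((if μ t = χ then 1 else 0) - (if μ 0 = χ then 1 else 0)) := by
    intro t χ
    have h := congrArg (fun f => classInner f (χ : G → ℂ)) (hτ t)
    simp only [τ, Char.classInner_sub_left, Char.classInner_smul_left,
      Char.classInner_irrCharacter, ha] at h
    have h' : a t χ - a 0 χ =
        ε * ((if μ t = χ then 1 else 0) - (if μ 0 = χ then 1 else 0)) := by
      apply Int.cast_injective (α := ℂ)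
      push_cast
      exact h
    linarith
  set K : Fin (r' + 1) → ℤ := fun s => a 0 (μ s) - ε * (if (0 : Fin (r' + 1)) = s then 1 else 0)
    with hK
  have hμa : ∀ t s, a t (μ s) = ε * (if t = s then 1 else 0) + K s := by
    intro t s
    rw [hdiff t (μ s)]
    simp only [hμ.eq_iff, hK]
    ring
  have hrest : ∀ χ, (∀ t, μ t ≠ χ) → ∀ t, a t χ = a 0 χ := by
    intro χ hχ t
    rw [hdiff t χ, if_neg (hχ t), if_neg (hχ 0)]
    ring
  set I := Finset.univ.image μ with hI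
  set A : ℤ := ∑ χ ∈ Iᶜ, a 0 χ * a 0 χ with hA
  have hε2 : ε * ε = 1 := by rcases hε with rfl | rfl <;> norm_num
  have hgram' : ∀ t t', ε * (K t + K t') + ∑ s, K s * K s + A = (m : ℤ) := by
    intro t t'
    have h := hG t t'
    rw [← Finset.sum_add_sum_compl I, hI, Finset.sum_image (fun _ _ _ _ e => hμ e)] at h
    rw [← hI] at h
    have h2 : ∑ χ ∈ Iᶜ, a t χ * a t' χ = A := Finset.sum_congr rfl fun χ hχ => by
      have hχ' : ∀ s, μ s ≠ χ := fun s e =>
        Finset.mem_compl.1 hχ (Finset.mem_image.2 ⟨s, Finset.mem_univ _, e⟩)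
      rw [hrest χ hχ' t, hrest χ hχ' t']
    have h3 : ∑ s, a t (μ s) * a t' (μ s) =
        (if t = t' then 1 else 0) + ε * (K t + K t') + ∑ s, K s * K s := by
      have hexp : ∀ s, a t (μ s) * a t' (μ s) = (if t = s then (if t' = s then 1 else 0) else 0) +
          ((if t = s then ε * K s else 0) + (if t' = s then ε * K s else 0)) + K s * K s := fun s => by
        rw [hμa, hμa]
        split_ifs <;> first | linear_combination hε2 | ring
      rw [Finset.sum_congr rfl fun s _ => hexp s, Finset.sum_add_distrib, Finset.sum_add_distrib,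
        Finset.sum_add_distrib, Finset.sum_ite_eq, Finset.sum_ite_eq, Finset.sum_ite_eq,
        if_pos (Finset.mem_univ _), if_pos (Finset.mem_univ _), if_pos (Finset.mem_univ _), mul_add]
      simp only [eq_comm (a := t') (b := t)]
    rw [h3, h2] at h
    linarith
  have hKc : ∀ t, K t = K 0 := fun t => by
    have h1 := hgram' t 0
    have h2 := hgram' 0 0
    rcases hε with rfl | rfl <;> linarith
  set c := K 0 with hc
  have hmain : 2 * (ε * c) + ((r' + 1 : ℕ) : ℤ) * (c * c) + A = (m : ℤ) := by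
    have h := hgram' 0 0
    simp only [hKc, Finset.sum_const, Finset.card_univ, Fintype.card_fin, nsmul_eq_mul] at h
    push_cast at h ⊢
    linarith
  have hA' : (m : ℤ) ≤ A := by
    have h1 : ((B \ I).card : ℤ) ≤ ∑ χ ∈ B \ I, a 0 χ * a 0 χ := by
      rw [Finset.card_eq_sum_ones, Nat.cast_sum]
      refine Finset.sum_le_sum fun χ hχ => ?_
      obtain ⟨hχB, hχI⟩ := Finset.mem_sdiff.1 hχ
      obtain ⟨t, ht⟩ := hne χ hχB
      rw [hrest χ (fun t e => hχI (Finset.mem_image.2 ⟨t, Finset.mem_univ _, e⟩)) t] at ht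
      simpa using hsq _ ht
    have h2 : m ≤ (B \ I).card := by
      have hIc : I.card = r' + 1 := by
        rw [hI, Finset.card_image_of_injective _ hμ, Finset.card_univ, Fintype.card_fin]
      have := Finset.le_card_sdiff I B
      omega
    have h3 : ∑ χ ∈ B \ I, a 0 χ * a 0 χ ≤ A := Finset.sum_le_sum_of_subset_of_nonneg
      (fun χ hχ => Finset.mem_compl.2 (Finset.mem_sdiff.1 hχ).2) fun χ _ _ => mul_self_nonneg _
    have h2' : (m : ℤ) ≤ (B \ I).card := by exact_mod_cast h2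
    linarith
  have hcases : c = 0 ∨ (ε * c = -1 ∧ r' = 1) := by
    set d := ε * c with hd
    have hd2 : d * d = c * c := by rw [hd]; linear_combination c * c * hε2
    rw [← hd2] at hmain
    have hr' : (2 : ℤ) ≤ ((r' + 1 : ℕ) : ℤ) := by exact_mod_cast Nat.succ_le_succ hr2
    rcases lt_trichotomy d 0 with hneg | h0 | hpos
    · right
      have hd1 : d = -1 := by
        by_contra hne'
        have : d ≤ -2 := by omega
        nlinarith
      refine ⟨hd1, ?_⟩
      rw [hd1] at hmain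
      omega
    · left
      rcases hε with rfl | rfl <;> linarith
    · exfalso
      nlinarith
  rcases hcases with h0 | ⟨h1, hr'1⟩
  · refine finish μ ε hμ hε (fun t s => ?_) hrest
    rw [hμa, hKc, h0, add_zero]
    split_ifs <;> simp
  · subst hr'1
    have hc' : c = -ε := by rcases hε with rfl | rfl <;> linarith
    refine finish (μ ∘ Equiv.swap 0 1) (-ε) (hμ.comp (Equiv.injective _))
      (by rcases hε with rfl | rfl <;> simp) (fun t s => ?_)
      fun χ hχ => hrest χ fun t e => hχ (Equiv.swap 0 1 t) (by simp [e])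
    rw [Function.comp_apply, hμa, hKc, hc']
    fin_cases t <;> fin_cases s <;> simp

theorem factorization_eq_of_dvd [Fact p.Prime] {A A' N : ℕ} (hA : A ≠ 0) (hA' : A' ≠ 0) {u w : ℤ}
    (hu : ¬ (p : ℤ) ∣ u) (hw : ¬ (p : ℤ) ∣ w) (h : (p : ℤ) ^ N ∣ u * A + w * A')
    (hlt : A.factorization p < N) : A'.factorization p = A.factorization p := by
  have hp : p.Prime := Fact.out
  have hP : Prime (p : ℤ) := Nat.prime_iff_prime_int.1 hp
  have key : ∀ k ≤ N, (p ^ k ∣ A' ↔ p ^ k ∣ A) := by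
    intro k hk
    have hk' : (p : ℤ) ^ k ∣ u * A + w * A' := (pow_dvd_pow _ hk).trans h
    rw [← Int.natCast_dvd_natCast, ← Int.natCast_dvd_natCast (n := A), Nat.cast_pow]
    constructor
    · intro h1
      exact hP.pow_dvd_of_dvd_mul_left k hu (by simpa using dvd_sub hk' (h1.mul_left w))
    · intro h1
      exact hP.pow_dvd_of_dvd_mul_left k hw (by simpa using dvd_sub hk' (h1.mul_left u))
  refine le_antisymm ?_ ((hp.pow_dvd_iff_le_factorization hA').1
    ((key _ hlt.le).2 (Nat.ordProj_dvd A p)))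
  by_contra hc
  have h1 := (key _ hlt).1 ((hp.pow_dvd_iff_le_factorization hA').2 (by omega))
  rw [hp.pow_dvd_iff_le_factorization hA] at h1
  omega

/-- A virtual character vanishing at singular elements has degree divisible by the Sylow order. -/
theorem pow_dvd_of_vanish [Fintype G] (hM : IsPModular p M) (c : IrrCharacter G → ℤ)
    (hvan : ∀ g : G, p ∣ orderOf g → ∑ χ : IrrCharacter G, (c χ : ℂ) * (χ : G → ℂ) g = 0) :
    (p : ℤ) ^ (Nat.card G).factorization p ∣ ∑ χ, c χ * (charDegree (χ : G → ℂ) : ℤ) := by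
  classical
  haveI : Fact p.Prime := ⟨hM.1⟩
  obtain ⟨S⟩ : Nonempty (Sylow p G) := inferInstance
  haveI := Fintype.ofFinite (S : Subgroup G)
  choose n hn using fun χ : IrrCharacter G => Char.classInner_natCast
    (Char.isCharacter_restrict (Char.isCharacter_of_isIrr χ.2) (S : Subgroup G))
    (Char.isCharacter_of_isIrr (Char.isIrrCharacter_one (G := (S : Subgroup G))))
  refine ⟨∑ χ, c χ * (n χ : ℤ), ?_⟩
  apply Int.cast_injective (α := ℂ)
  push_cast
  have hcard : (Nat.card (S : Subgroup G) : ℂ) = (p : ℂ) ^ (Nat.card G).factorization p := by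
    rw [S.card_eq_multiplicity, Nat.cast_pow]
  rw [← hcard]
  simp only [← irr_one_eq_natCast, Finset.mul_sum]
  have h1 : ∀ χ : IrrCharacter G, (Nat.card (S : Subgroup G) : ℂ) * ((c χ : ℂ) * (n χ : ℂ)) =
      ∑ t : (S : Subgroup G), (c χ : ℂ) * (χ : G → ℂ) (t : G) := fun χ => by
    rw [← hn χ, classInner, ← Finset.mul_sum]
    simp only [map_one, mul_one]
    field_simp [Nat.cast_ne_zero.2 (Nat.card_pos (α := (S : Subgroup G))).ne']
  rw [Finset.sum_congr rfl fun χ _ => h1 χ, Finset.sum_comm,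
    Finset.sum_eq_single (1 : (S : Subgroup G))]
  · simp
  · intro t _ ht
    refine hvan _ ?_
    obtain ⟨k, hk⟩ := Block.isPElem_of_mem S.isPGroup' t.2
    rw [hk]
    refine dvd_pow_self p fun h0 => ht (Subtype.ext (orderOf_eq_one_iff.1 ?_))
    rw [hk, h0, pow_zero]
  · simp

namespace Setup

variable {B : Set (IrrCharacter G)} {P : Subgroup G} {e : CBlock P} (S : Setup p M B P e)

/-- The number of characters of the block. -/
theorem card_block : Nat.card B = blockRank p B + S.r := by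
  classical
  haveI : Fact p.Prime := ⟨S.hM.1⟩
  haveI := Fintype.ofFinite P
  have hab := abelian_of_cyclic S.hcyc
  choose fv hfv using fun v : P => exists_le S.hM S.hP S.hmax.1.1.2 (Subgroup.zpowers (v : G))
    (Subgroup.zpowers_le.2 v.2)
  obtain ⟨T, _, F, rk, hsurj, hrk, hF, hcard⟩ :=
    exists_subsections_abelian S.hM S.hmax hab fv hfv
  have htn : stab M P e ≤ Subgroup.normalizer (P : Set G) := fun t ht => ht.1
  have h1 : rk (F 1) = blockRank p B := by
    rw [hrk]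
    have hQ : Subgroup.zpowers ((1 : P) : G) = ⊥ := by simp
    refine blockRank_eq_of_centralizer_top S.hmax.1.2.1 (fun g => ?_) (hfv 1).1
      ((isBrauerPairOf_iff S.hM).1
        ((pairOf_iff_of_le S.hM S.hP S.hmax.1.1.2 (hfv 1).2).2 S.hmax.1)).2.2.2
    rw [Subgroup.mem_centralizer_iff]
    intro u hu
    rw [SetLike.mem_coe, hQ, Subgroup.mem_bot] at hu
    rw [hu, one_mul, mul_one]
  have hone : ∀ v, F v = F 1 → v = 1 := fun v h => by
    obtain ⟨t, -, ht⟩ := (hF v 1).1 h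
    exact Subtype.ext (conj_eq_one_iff.1 ht)
  have hv1 : ∀ a, a ≠ F 1 → rk a = 1 := by
    intro a ha
    obtain ⟨v, rfl⟩ := hsurj a
    have hv : (v : G) ≠ 1 := fun h => ha (by rw [show v = 1 from Subtype.ext h])
    rw [hrk]
    refine (below_nilpotent S.hM S.hmax hab (hfv v).2 fun t ht => ?_).1
    refine mem_centralizer_of_fix S.hM S.hmax S.hcyc ht.1 v.2 hv ?_
    rw [← Subgroup.mem_centralizer_iff.1 ht.2 (v : G) (Subgroup.mem_zpowers _), mul_inv_cancel_right]
  have hfib : ∀ a, a ≠ F 1 → (Finset.univ.filter fun v => F v = a).card = S.m := by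
    intro a ha
    obtain ⟨v, rfl⟩ := hsurj a
    have hv : (v : G) ≠ 1 := fun h => ha (by rw [show v = 1 from Subtype.ext h])
    have hmem : ∀ i : ℕ, S.n ^ i * (v : G) * (S.n ^ i)⁻¹ ∈ P := fun i =>
      (Subgroup.mem_normalizer_iff.1 (htn (pow_mem S.n_stab i)) _).1 v.2
    rw [← Finset.card_range S.m]
    symm
    refine Finset.card_bij (fun i _ => (⟨_, hmem i⟩ : P)) (fun i _ => ?_) (fun i hi j hj h => ?_)
      fun w hw => ?_
    · refine Finset.mem_filter.2 ⟨Finset.mem_univ _, ?_⟩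
      exact ((hF v _).2 ⟨_, pow_mem S.n_stab i, rfl⟩).symm
    · have h' : S.n ^ i * (v : G) * (S.n ^ i)⁻¹ = S.n ^ j * (v : G) * (S.n ^ j)⁻¹ :=
        congrArg Subtype.val h
      have key : ∀ i j, j < S.m → i ≤ j →
          S.n ^ i * (v : G) * (S.n ^ i)⁻¹ = S.n ^ j * (v : G) * (S.n ^ j)⁻¹ → i = j := by
        intro i j hj hij h'
        rw [← Nat.add_sub_cancel' hij, pow_add, mul_inv_rev] at h'
        have hfix : S.n ^ (j - i) * (v : G) * (S.n ^ (j - i))⁻¹ = v :=
          calc _ = (S.n ^ i)⁻¹ * (S.n ^ i * S.n ^ (j - i) * (v : G) *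
                ((S.n ^ (j - i))⁻¹ * (S.n ^ i)⁻¹)) * S.n ^ i := by group
            _ = _ := by rw [← h']; group
        have hc := mem_centralizer_of_fix S.hM S.hmax S.hcyc (pow_mem S.n_stab _) v.2 hv hfix
        have := S.n_min (j - i) (by omega)
          (Subgroup.centralizer_le (SetLike.coe_subset_coe.2 S.Z_le) hc)
        omega
      rcases le_total i j with hl | hl
      · exact key i j (Finset.mem_range.1 hj) hl h'
      · exact (key j i (Finset.mem_range.1 hi) hl h'.symm).symm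
    · obtain ⟨t, ht, htv⟩ := (hF v w).1 (Finset.mem_filter.1 hw).2.symm
      have htN : t ∈ Subgroup.normalizer (S.Z : Set G) :=
        normalizer_le_of_cyclic S.hcyc S.Z_le (htn ht)
      obtain ⟨i, hi, hc⟩ :=
        S.cover t (inf_normalizer_stab_le S.hM S.hP S.hmax.1.1.2 S.hle ⟨ht, htN⟩)
      refine ⟨i, Finset.mem_range.2 hi, Subtype.ext ?_⟩
      have hc' := mem_centralizer_of_fix S.hM S.hmax S.hcyc
        (mul_mem (inv_mem (pow_mem S.n_stab i)) ht) (S.Z_le S.z_mem) S.z_ne_one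
        (by rw [← Subgroup.mem_centralizer_iff.1 hc _ S.z_mem, mul_inv_cancel_right])
      have hcv := Subgroup.mem_centralizer_iff.1 hc' (v : G) v.2
      show S.n ^ i * (v : G) * (S.n ^ i)⁻¹ = (w : G)
      rw [← htv]
      calc _ = S.n ^ i * ((v : G) * ((S.n ^ i)⁻¹ * t)) * t⁻¹ := by group
        _ = _ := by rw [hcv]; group
  have hq : p ^ S.a = 1 + (Finset.univ.erase (F 1)).card * S.m := by
    rw [← S.card_P, Nat.card_eq_fintype_card, ← Finset.card_univ,
      Finset.card_eq_sum_card_fiberwise (f := F) (t := Finset.univ) (fun a _ => Finset.mem_univ _),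
      ← Finset.add_sum_erase _ _ (Finset.mem_univ (F 1)),
      Finset.sum_congr rfl fun a ha => hfib a (Finset.ne_of_mem_erase ha), Finset.sum_const,
      smul_eq_mul]
    congr 1
    rw [Finset.card_eq_one]
    refine ⟨1, ?_⟩
    ext v
    simp only [Finset.mem_filter, Finset.mem_univ, true_and, Finset.mem_singleton]
    exact ⟨hone v, fun h => by rw [h]⟩
  rw [hcard, ← Finset.add_sum_erase _ _ (Finset.mem_univ (F 1)), h1,
    Finset.sum_congr rfl fun a ha => hv1 a (Finset.ne_of_mem_erase ha), Finset.sum_const,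
    smul_eq_mul, mul_one]
  congr 1
  have h2 := S.m_mul_r_add
  have h3 := S.m_pos
  rw [mul_comm] at hq
  exact Nat.eq_of_mul_eq_mul_left h3 (by omega)

theorem coef_inv [Fintype G] [Fintype S.CZ] (j : ℕ) (η : S.f) {φ : G → ℂ}
    (hφ : IsClassFunction G φ) :
    classInner (((S.perm ^ j) η).1 : S.CZ → ℂ) (fun h : S.CZ => φ h) =
      classInner (η.1 : S.CZ → ℂ) (fun h : S.CZ => φ h) := by
  rw [S.perm_pow]
  simp only [classInner]
  congr 1
  rw [← Equiv.sum_comp (S.nconj j).toEquiv]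
  refine Finset.sum_congr rfl fun h _ => ?_
  simp only [MulEquiv.toEquiv_eq_coe, EquivLike.coe_coe, mapIrr_apply, coe_normEquiv, hφ (h : G)]

/-- Representatives of the orbits away from a fixed member. -/
structure IsReps (η₀ : S.f) (R : Fin S.r → S.f) : Prop where
  fixed : S.perm η₀ = η₀
  ne : ∀ t, R t ≠ η₀
  free : ∀ t t' j, j < S.m → (S.perm ^ j) (R t) = R t' → t = t' ∧ j = 0
  all : ∀ η, η ≠ η₀ → ∃ t j, (S.perm ^ j) (R t) = η

theorem coef_rep [Fintype G] [Fintype S.CZ] {η₀ : S.f} {R : Fin S.r → S.f} (hR : S.IsReps η₀ R)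
    (η : S.f) {φ : G → ℂ} (hφ : IsClassFunction G φ) (hη : η ≠ η₀) :
    ∃ t, classInner (S.ind η.1 η₀.1) φ = classInner (S.ind (R t).1 η₀.1) φ := by
  obtain ⟨t, j, htj⟩ := hR.all η hη
  refine ⟨t, ?_⟩
  rw [S.classInner_ind _ _ hφ, S.classInner_ind _ _ hφ, ← htj, S.coef_inv j (R t) hφ]

theorem mapIrr_fixed {η₀ : S.f} (h0 : S.perm η₀ = η₀) (j : ℕ) :
    mapIrr (S.nconj j) η₀.1 = η₀.1 := by
  have : (S.perm ^ j) η₀ = η₀ := by
    induction j with
    | zero => simp
    | succ j ih => rw [pow_succ', Equiv.Perm.mul_apply, ih, h0]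
  rw [← S.perm_pow, this]

/-- The coefficients of the induced differences. -/
theorem exists_coeff [Fintype G] [Fintype S.CZ] {η₀ : S.f} {R : Fin S.r → S.f}
    (hR : S.IsReps η₀ R) :
    ∃ (μ : Fin S.r → IrrCharacter G) (δ : IrrCharacter G → ℤ) (ε : ℤ),
      Function.Injective μ ∧ Nat.card B = S.m + S.r ∧ (∀ t, μ t ∈ B) ∧ (ε = 1 ∨ ε = -1) ∧
      (∀ χ ∈ B, (∀ t, μ t ≠ χ) → δ χ = 1 ∨ δ χ = -1) ∧
      (∀ χ, χ ∉ B → δ χ = 0) ∧ (∀ t, δ (μ t) = 0) ∧
      ∀ t (χ : IrrCharacter G), classInner (S.ind (R t).1 η₀.1) (χ : G → ℂ) =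
        ((δ χ + open scoped Classical in if μ t = χ then ε else 0 : ℤ) : ℂ) := by
  classical
  haveI : Fact p.Prime := ⟨S.hM.1⟩
  have hR' := hR
  obtain ⟨h0, hR0, hRfree, hRall⟩ := hR
  let F : Fin S.r → G → ℂ := fun t => S.ind (R t).1 η₀.1
  have hfix := S.mapIrr_fixed h0
  -- the Gram matrix
  have hgram : ∀ t t', classInner (F t) (F t') = (S.m : ℂ) + if t = t' then 1 else 0 := by
    intro t t'
    rw [S.classInner_ind_ind (R t).2 η₀.2 (R t').2 η₀.2]
    have hterm : ∀ j ∈ Finset.range S.m, classInner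
        (((R t).1 : S.CZ → ℂ) - (η₀.1 : S.CZ → ℂ))
        ((mapIrr (S.nconj j) (R t').1 : S.CZ → ℂ) - (mapIrr (S.nconj j) η₀.1 : S.CZ → ℂ)) =
        1 + if t = t' ∧ j = 0 then 1 else 0 := by
      intro j hj
      rw [hfix j, Char.classInner_sub_left, Char.classInner_sub_right, Char.classInner_sub_right]
      simp only [Char.classInner_irrCharacter, ← S.perm_pow]
      have hne1 : ¬ (R t).1 = η₀.1 := fun h => hR0 t (Subtype.ext h)
      have hne2 : ¬ η₀.1 = ((S.perm ^ j) (R t') : S.f).1 := fun h => hR0 t' (by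
        apply (S.perm ^ j).injective
        rw [← Subtype.ext h]
        exact (Subtype.ext (by rw [S.perm_pow, hfix])).symm)
      rw [if_neg hne1, if_neg hne2, if_true, sub_zero, zero_sub, sub_neg_eq_add, add_comm]
      congr 1
      refine if_congr ⟨fun h => ?_, ?_⟩ rfl rfl
      · obtain ⟨h1, h2⟩ := hRfree t' t j (Finset.mem_range.1 hj) (Subtype.ext h.symm)
        exact ⟨h1.symm, h2⟩
      · rintro ⟨rfl, rfl⟩
        rw [pow_zero, Equiv.Perm.one_apply]
    rw [Finset.sum_congr rfl hterm, Finset.sum_add_distrib, Finset.sum_const, Finset.card_range,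
      nsmul_eq_mul, mul_one]
    congr 1
    by_cases htt : t = t'
    · subst htt
      simp [Finset.sum_ite_eq', S.m_pos]
    · simp [htt]
  let Bf : Finset (IrrCharacter G) := Finset.univ.filter fun χ => χ ∈ B
  have hBf : ∀ χ, χ ∈ Bf ↔ χ ∈ B := fun χ => by simp [Bf]
  have hBcard : Bf.card = blockRank p B + S.r := by
    rw [← S.card_block, Nat.card_eq_fintype_card, ← Fintype.card_subtype]
  obtain ⟨μ, δ, ε, hμ, hcard, hμB, hε, hδ, hδ0, hδμ, hcoef⟩ := exists_coherent_coeff S.r_pos F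
    (fun t => S.generalized_ind _ _) (fun t => S.ind_regular (R t).2 η₀.2 regular_one) hgram Bf
    (by have := S.le_blockRank; omega) fun χ hχ => by
      obtain ⟨η, hη, hne⟩ := S.exists_classInner_ne_zero (η₀ := η₀.1) ((hBf χ).1 hχ)
      have hηne : (⟨η, hη⟩ : S.f) ≠ η₀ := fun h => hne (by
        rw [show η = η₀.1 from congrArg Subtype.val h,
          S.classInner_ind _ _ (Char.isClassFunction_of_isIrr χ.2), sub_self])
      obtain ⟨t, ht⟩ := S.coef_rep hR' ⟨η, hη⟩ (Char.isClassFunction_of_isIrr χ.2) hηne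
      exact ⟨t, ht ▸ hne⟩
  refine ⟨μ, δ, ε, hμ, ?_, fun t => (hBf _).1 (hμB t), hε,
    fun χ hχ => hδ χ ((hBf χ).2 hχ), fun χ hχ => hδ0 χ fun h => hχ ((hBf χ).1 h), hδμ, hcoef⟩
  rw [S.card_block, ← hBcard, hcard]

/-- The full structure of a block with cyclic defect group. -/
theorem exists_structure :
    blockRank p B = S.m ∧ (∀ χ ∈ B, blockHeight p B (χ : G → ℂ) = 0) ∧
    ∃ X Y : Set (IrrCharacter G), B = X ∪ Y ∧ Disjoint X Y ∧ Nat.card X = S.m ∧ Nat.card Y = S.r ∧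
      (∀ ψ ∈ Y, ∀ ψ' ∈ Y, ∀ g : G, ¬ p ∣ orderOf g → (ψ : G → ℂ) g = (ψ' : G → ℂ) g) ∧
      ∃ (δ : IrrCharacter G → ℤ) (δ₀ : ℤ), (∀ χ ∈ X, δ χ = 1 ∨ δ χ = -1) ∧ (δ₀ = 1 ∨ δ₀ = -1) ∧
        (∀ ψ ∈ Y, ∀ g : G, ¬ p ∣ orderOf g →
          (δ₀ : ℂ) * (ψ : G → ℂ) g + ∑ᶠ χ ∈ X, (δ χ : ℂ) * (χ : G → ℂ) g = 0) ∧
        (∀ χ ∈ X, ∀ χ' ∈ X, δ χ * (charDegree (χ : G → ℂ) : ℤ) ≡
          δ χ' * (charDegree (χ' : G → ℂ) : ℤ) [ZMOD (p : ℤ) ^ S.a]) ∧
        ∀ ψ ∈ Y, ∀ χ ∈ X, (charDegree (ψ : G → ℂ) : ℤ) ≡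
          -((S.m : ℤ) * δ₀ * δ χ * (charDegree (χ : G → ℂ) : ℤ)) [ZMOD (p : ℤ) ^ S.a] := by
  classical
  haveI : Fact p.Prime := ⟨S.hM.1⟩
  haveI := Fintype.ofFinite G
  haveI := Fintype.ofFinite S.CZ
  obtain ⟨η₀, R, h0, hR0, hRfree, hRall⟩ := S.exists_base
  have hR : S.IsReps η₀ R := ⟨h0, hR0, hRfree, hRall⟩
  let F : Fin S.r → G → ℂ := fun t => S.ind (R t).1 η₀.1
  let Bf : Finset (IrrCharacter G) := Finset.univ.filter fun χ => χ ∈ B
  have hBf : ∀ χ, χ ∈ Bf ↔ χ ∈ B := fun χ => by simp [Bf]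
  have hBcard : Bf.card = blockRank p B + S.r := by
    rw [← S.card_block, Nat.card_eq_fintype_card, ← Fintype.card_subtype]
  obtain ⟨μ, δ, ε, hμ, hcard', hμB', hε, hδ', hδ0', hδμ, hcoef⟩ := S.exists_coeff hR
  have hcard : Bf.card = S.m + S.r := by
    rw [hBcard, ← S.card_block, hcard']
  have hμB : ∀ t, μ t ∈ Bf := fun t => (hBf _).2 (hμB' t)
  have hδ : ∀ χ ∈ Bf, (∀ t, μ t ≠ χ) → δ χ = 1 ∨ δ χ = -1 := fun χ hχ => hδ' χ ((hBf χ).1 hχ)
  have hδ0 : ∀ χ, χ ∉ Bf → δ χ = 0 := fun χ hχ => hδ0' χ fun h => hχ ((hBf χ).2 h)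
  replace hcoef : ∀ t (χ : IrrCharacter G), classInner (F t) (χ : G → ℂ) =
      ((δ χ + if μ t = χ then ε else 0 : ℤ) : ℂ) := hcoef
  have hcoefeq : ∀ (η : S.f) (φ : G → ℂ), IsClassFunction G φ → η ≠ η₀ →
      ∃ t, classInner (S.ind η.1 η₀.1) φ = classInner (F t) φ := fun η φ hφ hη =>
    S.coef_rep hR η hφ hη
  set Y : Finset (IrrCharacter G) := Finset.univ.image μ with hY
  set X : Finset (IrrCharacter G) := Bf \ Y with hX
  have hYB : Y ⊆ Bf := fun χ hχ => by
    obtain ⟨t, -, rfl⟩ := Finset.mem_image.1 hχ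
    exact hμB t
  have hYc : Y.card = S.r := by
    rw [hY, Finset.card_image_of_injective _ hμ, Finset.card_univ, Fintype.card_fin]
  have hXc : X.card = S.m := by
    have := Finset.card_sdiff_add_card_eq_card hYB
    rw [← hX] at this
    omega
  have hXne : ∀ χ ∈ X, ∀ t, μ t ≠ χ := fun χ hχ t e =>
    (Finset.mem_sdiff.1 hχ).2 (Finset.mem_image.2 ⟨t, Finset.mem_univ _, e⟩)
  have hδX : ∀ χ ∈ X, δ χ = 1 ∨ δ χ = -1 := fun χ hχ =>
    hδ χ (Finset.mem_sdiff.1 hχ).1 (hXne χ hχ)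
  have hsumX : ∀ (c : IrrCharacter G → ℂ), ∑ χ : IrrCharacter G, (δ χ : ℂ) * c χ =
      ∑ χ ∈ X, (δ χ : ℂ) * c χ := fun c =>
    (Finset.sum_subset (Finset.subset_univ X) fun χ _ hχ => by
      have hz : δ χ = 0 := by
        by_cases hχB : χ ∈ Bf
        · have hχY : χ ∈ Y := by
            by_contra hn
            exact hχ (Finset.mem_sdiff.2 ⟨hχB, hn⟩)
          obtain ⟨t, -, rfl⟩ := Finset.mem_image.1 hχY
          exact hδμ t
        · exact hδ0 χ hχB
      rw [hz, Int.cast_zero, zero_mul]).symm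
  -- the relation
  have hrel : ∀ t (g : G), ¬ p ∣ orderOf g →
      (ε : ℂ) * (μ t : G → ℂ) g + ∑ χ ∈ X, (δ χ : ℂ) * (χ : G → ℂ) g = 0 := by
    intro t g hg
    have h := congrFun (Char.eq_sum_classInner_smul
      (Char.isClassFunction_of_generalized (S.generalized_ind (R t).1 η₀.1))) g
    rw [S.ind_regular (R t).2 η₀.2 hg] at h
    simp only [Finset.sum_apply, Pi.smul_apply, smul_eq_mul] at h
    simp only [show ∀ χ : IrrCharacter G, classInner (S.ind (R t).1 η₀.1) (χ : G → ℂ) =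
      ((δ χ + if μ t = χ then ε else 0 : ℤ) : ℂ) from hcoef t, Int.cast_add, add_mul,
      Finset.sum_add_distrib, hsumX, Int.cast_ite, Int.cast_zero, ite_mul, zero_mul,
      Finset.sum_ite_eq, Finset.mem_univ, if_true] at h
    rw [add_comm]
    exact h.symm
  -- orthogonal combinations
  set N := (Nat.card G).factorization p with hN
  have hdvd : ∀ c : IrrCharacter G → ℤ, (∀ χ, χ ∉ B → c χ = 0) →
      (∀ t, ∑ χ ∈ X, δ χ * c χ + ε * c (μ t) = 0) →
      (p : ℤ) ^ N ∣ ∑ χ, c χ * (charDegree (χ : G → ℂ) : ℤ) := by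
    intro c hc hort
    refine pow_dvd_of_vanish S.hM c fun g hg => ?_
    have hφc : IsClassFunction G (fun g => ∑ χ : IrrCharacter G, (c χ : ℂ) * (χ : G → ℂ) g) :=
      fun x y => by simp only [Char.isClassFunction_of_isIrr (Subtype.prop _) x y]
    refine S.eq_zero_of_singular (fun χ => (c χ : ℂ)) (fun χ hχ => by rw [hc χ hχ, Int.cast_zero])
      rfl ?_ hg
    have hto : ∀ η ∈ S.f, classInner (η : S.CZ → ℂ)
          (fun h : S.CZ => ∑ χ : IrrCharacter G, (c χ : ℂ) * (χ : G → ℂ) h) =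
        classInner (η₀.1 : S.CZ → ℂ)
          (fun h : S.CZ => ∑ χ : IrrCharacter G, (c χ : ℂ) * (χ : G → ℂ) h) := by
      intro η hη
      by_cases he : (⟨η, hη⟩ : S.f) = η₀
      · rw [← he]
      obtain ⟨t, ht⟩ := hcoefeq ⟨η, hη⟩ _ hφc he
      rw [← sub_eq_zero]
      refine Eq.trans (S.classInner_ind η η₀.1 hφc).symm (ht.trans ?_)
      rw [show (fun g => ∑ χ : IrrCharacter G, (c χ : ℂ) * (χ : G → ℂ) g) =
        ∑ χ : IrrCharacter G, (c χ : ℂ) • (χ : G → ℂ) by funext g; simp, Char.classInner_sum_right]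
      simp only [Char.classInner_smul_right, map_intCast, hcoef, Int.cast_add, mul_add,
        Finset.sum_add_distrib, mul_comm (c _ : ℂ) (δ _ : ℂ), hsumX, Int.cast_ite, Int.cast_zero,
        mul_ite, mul_zero, Finset.sum_ite_eq, Finset.mem_univ, if_true]
      rw [mul_comm (c (μ t) : ℂ)]
      exact_mod_cast hort t
    intro η hη η' hη'
    rw [hto η hη, hto η' hη']
  set deg : IrrCharacter G → ℤ := fun χ => (charDegree (χ : G → ℂ) : ℤ) with hdeg
  have hXB : ∀ χ ∈ X, χ ∈ B := fun χ hχ => (hBf χ).1 (Finset.mem_sdiff.1 hχ).1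
  have hsqd : ∀ χ ∈ X, δ χ * δ χ = 1 := fun χ hχ => by
    rcases hδX χ hχ with h | h <;> rw [h] <;> norm_num
  -- two ordinary members
  have hcX : ∀ χ ∈ X, ∀ χ' ∈ X, (p : ℤ) ^ N ∣ δ χ * deg χ - δ χ' * deg χ' := by
    intro χ hχ χ' hχ'
    have h := hdvd (fun ψ => (if ψ = χ then δ χ else 0) - if ψ = χ' then δ χ' else 0)
      (fun ψ hψ => by
        rw [if_neg (fun e => hψ (by rw [e]; exact hXB χ hχ)),
          if_neg (fun e => hψ (by rw [e]; exact hXB χ' hχ')), sub_zero]) fun t => by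
      simp only [mul_sub, Finset.sum_sub_distrib, mul_ite, mul_zero, Finset.sum_ite_eq', if_pos hχ,
        if_pos hχ', hsqd χ hχ, hsqd χ' hχ', sub_self, if_neg (hXne χ hχ t), if_neg (hXne χ' hχ' t),
        add_zero]
    simpa [sub_mul, Finset.sum_sub_distrib, ite_mul] using h
  -- an exceptional and an ordinary member
  have hμdeg : ∀ t t', deg (μ t) = deg (μ t') := by
    intro t t'
    have h1 := hrel t 1 regular_one
    have h2 := hrel t' 1 regular_one
    have hε0 : (ε : ℂ) ≠ 0 := by rcases hε with rfl | rfl <;> simp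
    have h3 := mul_left_cancel₀ hε0 (add_right_cancel (h1.trans h2.symm))
    rw [irr_one_eq_natCast, irr_one_eq_natCast, Nat.cast_inj] at h3
    simp only [hdeg, h3]
  have hcY : ∀ χ ∈ X, ∀ t,
      (p : ℤ) ^ N ∣ (S.r : ℤ) * deg (μ t) - ε * δ χ * deg χ := by
    intro χ hχ t
    have h := hdvd (fun ψ => (∑ s, if μ s = ψ then (1 : ℤ) else 0) - if ψ = χ then ε * δ χ else 0)
      (fun ψ hψ => by
        rw [if_neg (fun e => hψ (by rw [e]; exact hXB χ hχ)), sub_zero]
        refine Finset.sum_eq_zero fun s _ => if_neg fun e => hψ ?_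
        rw [← e]
        exact (hBf _).1 (hμB s)) fun s => by
      have e1 : ∑ ψ ∈ X, δ ψ * ∑ u, (if μ u = ψ then (1 : ℤ) else 0) = 0 :=
        Finset.sum_eq_zero fun ψ hψ => by
          rw [Finset.sum_eq_zero fun u _ => if_neg (hXne ψ hψ u), mul_zero]
      have e2 : ∑ u, (if μ u = μ s then (1 : ℤ) else 0) = 1 := by simp [hμ.eq_iff]
      simp only [mul_sub, Finset.sum_sub_distrib, e1, mul_ite, mul_zero, Finset.sum_ite_eq',
        if_pos hχ, if_neg (hXne χ hχ s), sub_zero, e2, mul_one]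
      linear_combination -ε * hsqd χ hχ
    simp only [sub_mul, Finset.sum_sub_distrib, ite_mul, zero_mul, Finset.sum_ite_eq',
      Finset.mem_univ, if_true, Finset.sum_mul] at h
    rw [Finset.sum_comm] at h
    simp only [ite_mul, one_mul, zero_mul, Finset.sum_ite_eq, Finset.mem_univ, if_true,
      Finset.sum_const, Finset.card_univ, Fintype.card_fin, nsmul_eq_mul,
      show ∀ u, (charDegree (μ u : G → ℂ) : ℤ) = deg (μ t) from fun u => hμdeg u t] at h
    exact h
  -- heights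
  have hd : blockDefect p B = S.a := Nat.pow_right_injective S.hM.1.two_le
    ((card_maximal S.hM S.hmax).symm.trans S.card_P)
  have haN : S.a ≤ N := by
    rw [hN, ← hd]
    exact Nat.sub_le _ _
  have hdpos : ∀ χ : IrrCharacter G, charDegree (χ : G → ℂ) ≠ 0 := fun χ => (charDegree_pos χ).ne'
  set val : IrrCharacter G → ℕ := fun χ => (charDegree (χ : G → ℂ)).factorization p with hval
  have hsne : (val '' B).Nonempty := (isPBlock_nonempty S.hmax.1.2.1).image _
  set v₀ := sInf (val '' B) with hv₀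
  obtain ⟨χ₁, hχ₁, hχ₁v⟩ := Nat.sInf_mem hsne
  have hv₀N : v₀ < N := by
    have : N - v₀ = S.a := hd
    have := S.a_pos
    omega
  have hnd : ∀ z : ℤ, (z = 1 ∨ z = -1) → ¬ (p : ℤ) ∣ z := fun z hz h => by
    have h1 := Int.natAbs_dvd_natAbs.2 h
    rcases hz with rfl | rfl <;> simp at h1 <;> exact S.hM.1.ne_one h1
  have hrp : ¬ (p : ℤ) ∣ (S.r : ℤ) := fun h => by
    rw [Int.natCast_dvd_natCast] at h
    have h1 : p ∣ p ^ S.a - 1 := S.m_mul_r ▸ dvd_mul_of_dvd_right h _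
    have h2 : p ∣ p ^ S.a := dvd_pow_self p S.a_pos.ne'
    have h3 : 1 ≤ p ^ S.a := S.model.q_pos
    have h4 := Nat.dvd_sub h2 h1
    rw [Nat.sub_sub_self h3, Nat.dvd_one] at h4
    exact S.hM.1.ne_one h4
  obtain ⟨χx, hχx⟩ : X.Nonempty := Finset.card_pos.1 (hXc ▸ S.m_pos)
  have hBsplit : ∀ χ ∈ B, χ ∈ X ∨ ∃ t, μ t = χ := fun χ hχ => by
    by_cases hY' : χ ∈ Y
    · obtain ⟨t, -, e⟩ := Finset.mem_image.1 hY'
      exact Or.inr ⟨t, e⟩
    · exact Or.inl (Finset.mem_sdiff.2 ⟨(hBf χ).2 hχ, hY'⟩)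
  have hvX : ∀ χ ∈ X, ∀ χ' ∈ X, val χ < N → val χ' = val χ := fun χ hχ χ' hχ' hlt =>
    factorization_eq_of_dvd (hdpos χ) (hdpos χ') (hnd _ (hδX χ hχ))
      (hnd _ ((hδX χ' hχ').symm.imp (fun h => by omega) (fun h => by omega) :
        -δ χ' = 1 ∨ -δ χ' = -1)) (by simpa [hdeg, sub_eq_add_neg] using hcX χ hχ χ' hχ') hlt
  have hnε : ∀ χ ∈ X, ¬ (p : ℤ) ∣ -(ε * δ χ) := fun χ hχ => hnd _ (by
    rcases hε with rfl | rfl <;> rcases hδX χ hχ with h | h <;> rw [h] <;> norm_num)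
  have hvXY : ∀ χ ∈ X, ∀ t, val χ < N → val (μ t) = val χ := fun χ hχ t hlt =>
    factorization_eq_of_dvd (hdpos χ) (hdpos (μ t)) (hnε χ hχ) hrp
      (by have h := hcY χ hχ t; rw [sub_eq_neg_add, neg_mul_eq_neg_mul] at h; exact h) hlt
  have hvYX : ∀ χ ∈ X, ∀ t, val (μ t) < N → val χ = val (μ t) := fun χ hχ t hlt =>
    factorization_eq_of_dvd (hdpos (μ t)) (hdpos χ) hrp (hnε χ hχ)
      (by have h := hcY χ hχ t; rw [sub_eq_add_neg, neg_mul_eq_neg_mul] at h; exact h) hlt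
  have hx0 : val χx = v₀ := by
    rcases hBsplit χ₁ hχ₁ with h | ⟨t, rfl⟩
    · rw [hvX χ₁ h χx hχx (hχ₁v ▸ hv₀N), hχ₁v]
    · rw [hvYX χx hχx t (hχ₁v ▸ hv₀N), hχ₁v]
  have hall : ∀ χ ∈ B, val χ = v₀ := fun χ hχ => by
    rcases hBsplit χ hχ with h | ⟨t, rfl⟩
    · rw [hvX χx hχx χ h (hx0 ▸ hv₀N), hx0]
    · rw [hvXY χx hχx t (hx0 ▸ hv₀N), hx0]
  refine ⟨by omega, fun χ hχ => ?_, (X : Set (IrrCharacter G)), (Y : Set (IrrCharacter G)),
    ?_, ?_, ?_, ?_, ?_, δ, ε, fun χ hχ => hδX χ hχ, hε, ?_, ?_, ?_⟩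
  · exact Nat.sub_eq_zero_of_le (hall χ hχ).le
  · ext χ
    rw [← hBf, Set.mem_union, Finset.mem_coe, Finset.mem_coe, hX, Finset.mem_sdiff]
    refine ⟨fun h => ?_, fun h => h.elim And.left (fun h => hYB h)⟩
    by_cases hY' : χ ∈ Y
    · exact Or.inr hY'
    · exact Or.inl ⟨h, hY'⟩
  · rw [Finset.disjoint_coe]
    exact Finset.sdiff_disjoint
  · rw [Nat.card_eq_fintype_card, ← Set.toFinset_card, Finset.toFinset_coe, hXc]
  · rw [Nat.card_eq_fintype_card, ← Set.toFinset_card, Finset.toFinset_coe, hYc]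
  · intro ψ hψ ψ' hψ' g hg
    obtain ⟨t, -, rfl⟩ := Finset.mem_image.1 hψ
    obtain ⟨t', -, rfl⟩ := Finset.mem_image.1 hψ'
    refine mul_left_cancel₀ (?_ : (ε : ℂ) ≠ 0)
      (add_right_cancel ((hrel t g hg).trans (hrel t' g hg).symm))
    rcases hε with rfl | rfl <;> simp
  · intro ψ hψ g hg
    obtain ⟨t, -, rfl⟩ := Finset.mem_image.1 hψ
    rw [finsum_mem_coe_finset]
    exact hrel t g hg
  · intro χ hχ χ' hχ'
    exact Int.modEq_iff_dvd.2 ((pow_dvd_pow _ haN).trans (hcX χ' hχ' χ hχ))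
  · intro ψ hψ χ hχ
    obtain ⟨t, -, rfl⟩ := Finset.mem_image.1 hψ
    refine Int.modEq_iff_dvd.2 ?_
    obtain ⟨k, hk⟩ := (pow_dvd_pow _ haN).trans (hcY χ hχ t)
    have hq : (S.m : ℤ) * S.r = (p : ℤ) ^ S.a - 1 := by
      rw [← Nat.cast_mul, S.m_mul_r, Nat.cast_sub S.model.q_pos, Nat.cast_pow, Nat.cast_one]
    exact ⟨S.m * k - deg (μ t), by
      linear_combination (S.m : ℤ) * hk - deg (μ t) * hq⟩

end Setup

end Cfsg.Agent.Lib.CyclicDefect
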